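import Groth.Agent.Pi1.H568.Darts
import Mathlib.Data.ZMod.QuotientGroup
import Mathlib.GroupTheory.GroupAction.Period
import Mathlib.Data.Finset.Sum
import Mathlib.Data.Fintype.Sigma

/-!
# The faces of the covering given by a transitive action
-/

set_option autoImplicit false

universe u v w

namespace Groth.Agent.Pi1.H568.Cover

open Groth.Agent.Pi1.H568.Word Groth.Agent.Pi1.H568.Handle Groth.Agent.Pi1.H568.Merge
  Groth.Agent.Pi1.H568.Erase Groth.Agent.Pi1.H568.Darts MulAction

/-- the punctures of the covering: an index `i` and an orbit of `x i`. -/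
abbrev Punct {r : ℕ} {Γ : Type u} [Group Γ] (x : Fin r → Γ) (F : Type v) [MulAction Γ F] : Type v :=
  Σ i : Fin r, orbitRel.Quotient (Subgroup.zpowers (x i)) F

section

variable {m : ℕ} {Γ : Type u} [Group Γ] (x : Fin (m + 1) → Γ) (F : Type v) [MulAction Γ F]

/-- the letters -/
abbrev Letter : Type v := Dart m F ⊕ (Punct x F × Bool)

variable {F}

/-- the inverse of a letter -/
def bar : Letter x F → Letter x F := Sum.map rev (Prod.map id not)

/-- the puncture letters -/
def Z (d : Letter x F) : Prop := d.isRight = true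

lemma isBar : IsBar (bar x) (Z x : Letter x F → Prop) := by
  refine ⟨?_, ?_, ?_⟩
  · rintro (d | ⟨c, b⟩)
    · simp [bar]
    · simp [bar]
  · rintro (d | ⟨c, b⟩)
    · simpa [bar] using rev_ne d
    · simp [bar]
  · rintro (d | ⟨c, b⟩) <;> simp [bar, Z]

lemma not_Z (d : Dart m F) : ¬ Z x (Sum.inl d : Letter x F) := by simp [Z]

lemma Z_inr (p : Punct x F × Bool) : Z x (Sum.inr p : Letter x F) := by simp [Z]

/-- a representative of an orbit -/
noncomputable def rep (c : Punct x F) : F := Quotient.out c.2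

/-- the size of the orbit -/
noncomputable def per (c : Punct x F) : ℕ := period (x c.1) (rep x c)

/-- partial products -/
def par (i : ℕ) : Γ := ((List.ofFn x).take i).prod

lemma par_zero : par x 0 = 1 := by simp [par]

lemma par_succ (i : Fin (m + 1)) : par x (i + 1) = par x i * x i := by
  unfold par
  rw [List.prod_take_succ _ _ (by rw [List.length_ofFn]; exact i.2), List.getElem_ofFn]

lemma par_last (hx : (List.ofFn x).prod = 1) : par x (m + 1) = 1 := by
  unfold par
  rw [List.take_of_length_le (by simp), hx]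

/-- white faces -/
def white (f : F) : List (Letter x F) :=
  List.ofFn fun i : Fin (m + 1) => Sum.inl (i, (par x i)⁻¹ • f, true)

/-- black faces -/
noncomputable def black (c : Punct x F) : List (Letter x F) :=
  (List.ofFn fun k : Fin (per x c) =>
    (Sum.inl (c.1, (x c.1) ^ ((k : ℕ) + 1) • rep x c, false) : Letter x F)) ++ [Sum.inr (c, true)]

/-- all faces -/
noncomputable def face : F ⊕ Punct x F → List (Letter x F) := Sum.elim (white x) (black x)

/-- the value of a puncture letter -/
noncomputable def zval (τ : F → Γ) (c : Punct x F) : Γ :=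
  (τ (rep x c))⁻¹ * (x c.1) ^ per x c * τ (rep x c)

/-- the values of the letters -/
noncomputable def hv (τ : F → Γ) : Letter x F → Γ :=
  Sum.elim (hval x τ) fun p => if p.2 then zval x τ p.1 else (zval x τ p.1)⁻¹

lemma hv_bar (τ : F → Γ) (d : Letter x F) : hv x τ (bar x d) = (hv x τ d)⁻¹ := by
  rcases d with d | ⟨c, b⟩
  · exact hval_rev x τ d
  · cases b <;> simp [hv, bar]

lemma prod_telescope {n : ℕ} (a : ℕ → Γ) :
    (List.ofFn fun i : Fin n => (a i)⁻¹ * a (i + 1)).prod = (a 0)⁻¹ * a n := by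
  induction n with
  | zero => simp
  | succ n ih =>
    rw [List.ofFn_succ', List.concat_eq_append, List.prod_append]
    have : (List.ofFn fun i : Fin n => (a (Fin.castSucc i : Fin (n + 1)))⁻¹ *
        a ((Fin.castSucc i : Fin (n + 1)) + 1)) = List.ofFn fun i : Fin n => (a i)⁻¹ * a (i + 1) := by
      congr 1
    rw [this, ih]
    simp

lemma val_white (hx : (List.ofFn x).prod = 1) (τ : F → Γ) (f : F) :
    val (hv x τ) (white x f) = 1 := by
  unfold val white
  rw [List.map_ofFn]
  have : ((hv x τ) ∘ fun i : Fin (m + 1) => (Sum.inl (i, (par x i)⁻¹ • f, true) : Letter x F)) =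
      fun i : Fin (m + 1) => (par x i * τ ((par x i)⁻¹ • f))⁻¹ *
        (par x ((i : ℕ) + 1) * τ ((par x ((i : ℕ) + 1))⁻¹ • f)) := by
    funext i
    change hval x τ (i, (par x i)⁻¹ • f, true) = _
    rw [hval_true, par_succ, mul_inv_rev (par x i) (x i), mul_smul]
    group
  rw [this, prod_telescope (fun i => par x i * τ ((par x i)⁻¹ • f)), par_zero, par_last x hx]
  simp

lemma val_black (τ : F → Γ) (c : Punct x F) : val (hv x τ) (black x c) = 1 := by
  unfold black
  rw [val_append]
  have h1 : val (hv x τ) (List.ofFn fun k : Fin (per x c) =>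
      (Sum.inl (c.1, (x c.1) ^ ((k : ℕ) + 1) • rep x c, false) : Letter x F)) =
      (τ (rep x c))⁻¹ * ((x c.1) ^ per x c)⁻¹ * τ (rep x c) := by
    unfold val
    rw [List.map_ofFn]
    have : ((hv x τ) ∘ fun k : Fin (per x c) =>
        (Sum.inl (c.1, (x c.1) ^ ((k : ℕ) + 1) • rep x c, false) : Letter x F)) =
        fun k : Fin (per x c) => (((x c.1) ^ (k : ℕ))⁻¹ * τ ((x c.1) ^ (k : ℕ) • rep x c))⁻¹ *
          (((x c.1) ^ ((k : ℕ) + 1))⁻¹ * τ ((x c.1) ^ ((k : ℕ) + 1) • rep x c)) := by
      funext k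
      change hval x τ (c.1, (x c.1) ^ ((k : ℕ) + 1) • rep x c, false) = _
      rw [hval_false, ← mul_smul, pow_succ' (x c.1), inv_mul_cancel_left]
      group
    rw [this, prod_telescope
      (fun k => ((x c.1) ^ k)⁻¹ * τ ((x c.1) ^ k • rep x c))]
    have h2 : (x c.1) ^ per x c • rep x c = rep x c := pow_period_smul _ _
    rw [h2]
    simp [mul_assoc]
  rw [h1]
  simp [hv, zval, mul_assoc]

lemma mem_white {f : F} {d : Letter x F} : d ∈ white x f ↔
    ∃ i : Fin (m + 1), d = Sum.inl (i, (par x i)⁻¹ • f, true) := by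
  unfold white
  rw [List.mem_ofFn]
  exact ⟨fun ⟨i, hi⟩ => ⟨i, hi.symm⟩, fun ⟨i, hi⟩ => ⟨i, hi.symm⟩⟩

lemma mem_black {c : Punct x F} {d : Letter x F} : d ∈ black x c ↔
    (∃ k : Fin (per x c), d = Sum.inl (c.1, (x c.1) ^ ((k : ℕ) + 1) • rep x c, false)) ∨
      d = Sum.inr (c, true) := by
  unfold black
  rw [List.mem_append, List.mem_ofFn, List.mem_singleton]
  constructor
  · rintro (⟨i, hi⟩ | h)
    · exact Or.inl ⟨i, hi.symm⟩
    · exact Or.inr h
  · rintro (⟨i, hi⟩ | h)
    · exact Or.inl ⟨i, hi.symm⟩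
    · exact Or.inr h

lemma per_pos [Finite F] (c : Punct x F) : 0 < per x c :=
  Nat.pos_of_ne_zero (MulAction.minimalPeriod_pos (x c.1) (rep x c)).out

/-- the orbit class of the letters of a black face -/
lemma mk_pow_smul (c : Punct x F) (k : ℕ) :
    (Quotient.mk _ ((x c.1) ^ k • rep x c) : orbitRel.Quotient (Subgroup.zpowers (x c.1)) F) =
      c.2 := by
  have h1 : (Quotient.mk _ (rep x c) : orbitRel.Quotient (Subgroup.zpowers (x c.1)) F) = c.2 :=
    Quotient.out_eq _
  rw [← h1]
  apply Quotient.sound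
  change (orbitRel (Subgroup.zpowers (x c.1)) F) _ _
  rw [orbitRel_apply]
  exact ⟨⟨(x c.1) ^ k, Subgroup.npow_mem_zpowers _ _⟩, rfl⟩

lemma exists_black [Finite F] (i : Fin (m + 1)) (f : F) :
    (Sum.inl (i, f, false) : Letter x F) ∈ black x ⟨i, Quotient.mk _ f⟩ := by
  set c : Punct x F := ⟨i, Quotient.mk _ f⟩ with hc
  rw [mem_black]
  left
  have h1 : (orbitRel (Subgroup.zpowers (x i)) F) (rep x c) f := by
    have : (Quotient.mk _ (rep x c) : orbitRel.Quotient (Subgroup.zpowers (x i)) F) =
      Quotient.mk _ f := Quotient.out_eq _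
    exact Quotient.exact this
  have h2 : f ∈ orbit (Subgroup.zpowers (x i)) (rep x c) :=
    (orbitRel (Subgroup.zpowers (x i)) F).symm h1
  obtain ⟨⟨_, n, rfl⟩, hn⟩ := h2
  have hn' : (x i) ^ n • rep x c = f := hn
  have hpos := per_pos x c
  have h3 : 0 ≤ (n - 1) % (per x c : ℤ) := Int.emod_nonneg _ (by omega)
  have h4 : (n - 1) % (per x c : ℤ) < per x c := Int.emod_lt_of_pos _ (by omega)
  refine ⟨⟨((n - 1) % (per x c : ℤ)).toNat, by omega⟩, ?_⟩
  have h5 : (x i) ^ (((n - 1) % (per x c : ℤ)).toNat + 1) • rep x c = f := by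
    rw [pow_succ', mul_smul, ← zpow_natCast, Int.toNat_of_nonneg h3]
    have h6 : (x i) ^ ((n - 1) % (per x c : ℤ)) • rep x c = (x i) ^ (n - 1) • rep x c :=
      zpow_mod_period_smul _
    rw [h6, smul_smul, mul_self_zpow, sub_add_cancel]
    exact hn'
  exact congrArg (fun g => (Sum.inl (i, g, false) : Letter x F)) h5.symm

lemma nodup_white (f : F) : (white x f).Nodup := by
  unfold white
  rw [List.nodup_ofFn]
  intro i j hij
  simp only [Sum.inl.injEq, Prod.mk.injEq] at hij
  exact hij.1

lemma nodup_black (c : Punct x F) : (black x c).Nodup := by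
  unfold black
  rw [List.nodup_append]
  refine ⟨?_, by simp, ?_⟩
  · rw [List.nodup_ofFn]
    intro i j hij
    simp only [Sum.inl.injEq, Prod.mk.injEq, true_and, and_true] at hij
    rw [pow_succ', pow_succ', mul_smul, mul_smul, smul_left_cancel_iff] at hij
    have key : ∀ a b : Fin (per x c), a ≤ b →
        x c.1 ^ (a : ℕ) • rep x c = x c.1 ^ (b : ℕ) • rep x c → a = b := by
      intro a b hab h
      by_contra hne
      have hlt : (a : ℕ) < b := by
        have h1 : (a : ℕ) ≤ b := hab
        have h2 : (a : ℕ) ≠ b := fun e => hne (Fin.ext e)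
        omega
      have h1 : (x c.1) ^ ((b : ℕ) - a) • rep x c = rep x c := by
        have h2 : (b : ℕ) = a + (b - a) := by omega
        rw [h2, pow_add, mul_smul, smul_left_cancel_iff] at h
        exact h.symm
      exact pow_smul_ne_of_lt_period (by omega) (by have := b.2; unfold per at this; omega) h1
    rcases le_total i j with h | h
    · exact key i j h hij
    · exact (key j i h hij.symm).symm
  · intro a ha b hb e
    rw [List.mem_singleton] at hb
    rw [List.mem_ofFn] at ha
    obtain ⟨k, hk⟩ := ha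
    rw [e, hb] at hk
    simp at hk

lemma face_nodup (i : F ⊕ Punct x F) : (face x i).Nodup := by
  rcases i with f | c
  · exact nodup_white x f
  · exact nodup_black x c

lemma face_disj (i j : F ⊕ Punct x F) (d : Letter x F) (h1 : d ∈ face x i) (h2 : d ∈ face x j) :
    i = j := by
  rcases i with f | c <;> rcases j with f' | c'
  · obtain ⟨i, hi⟩ := (mem_white x).1 h1
    obtain ⟨j, hj⟩ := (mem_white x).1 h2
    rw [hi] at hj
    simp only [Sum.inl.injEq, Prod.mk.injEq] at hj
    obtain ⟨h3, h4, -⟩ := hj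
    subst h3
    rw [smul_left_cancel_iff] at h4
    rw [h4]
  · exfalso
    obtain ⟨i, hi⟩ := (mem_white x).1 h1
    rcases (mem_black x).1 h2 with ⟨k, hk⟩ | hk
    · rw [hi] at hk; simp at hk
    · rw [hi] at hk; simp at hk
  · exfalso
    obtain ⟨i, hi⟩ := (mem_white x).1 h2
    rcases (mem_black x).1 h1 with ⟨k, hk⟩ | hk
    · rw [hi] at hk; simp at hk
    · rw [hi] at hk; simp at hk
  · rcases (mem_black x).1 h1 with ⟨k, hk⟩ | hk
    · rcases (mem_black x).1 h2 with ⟨k', hk'⟩ | hk'
      · rw [hk] at hk'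
        simp only [Sum.inl.injEq, Prod.mk.injEq, and_true] at hk'
        obtain ⟨h3, h4⟩ := hk'
        have h5 := mk_pow_smul x c ((k : ℕ) + 1)
        have h6 := mk_pow_smul x c' ((k' : ℕ) + 1)
        rw [← h4] at h6
        obtain ⟨i, ω⟩ := c
        obtain ⟨i', ω'⟩ := c'
        dsimp only at h3
        subst h3
        dsimp only at h5 h6
        rw [← h5, ← h6]
      · rw [hk] at hk'; simp at hk'
    · rcases (mem_black x).1 h2 with ⟨k', hk'⟩ | hk'
      · rw [hk] at hk'; simp at hk'
      · rw [hk] at hk'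
        simp only [Sum.inr.injEq, Prod.mk.injEq, and_true] at hk'
        rw [hk']

lemma exists_face [Finite F] (d : Dart m F) : ∃ j, (Sum.inl d : Letter x F) ∈ face x j := by
  obtain ⟨i, f, b⟩ := d
  cases b
  · exact ⟨Sum.inr _, exists_black x i f⟩
  · refine ⟨Sum.inl (par x i • f), (mem_white x).2 ⟨i, ?_⟩⟩
    rw [inv_smul_smul]

lemma face_mem [Finite F] (i : F ⊕ Punct x F) (d : Letter x F) (_ : d ∈ face x i)
    (hZ : ¬ Z x d) : ∃ j, bar x d ∈ face x j := by
  rcases d with d | p
  · exact exists_face x (rev d)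
  · exact absurd (Z_inr x p) hZ

/-- the tree letters -/
def TT (T : Finset (Dart m F)) (d : Letter x F) : Prop := ∃ d' ∈ T, d = Sum.inl d'

@[simp] lemma TT_inl {T : Finset (Dart m F)} {d : Dart m F} :
    TT x T (Sum.inl d) ↔ d ∈ T := by simp [TT]

@[simp] lemma TT_inr {T : Finset (Dart m F)} {p : Punct x F × Bool} :
    ¬ TT x T (Sum.inr p) := by simp [TT]

/-- connectedness in terms of the faces -/
theorem face_conn [Fintype F] [Fintype (Punct x F)] (hx : (List.ofFn x).prod = 1) {o : F}
    {τ : F → Γ} {T : Finset (Dart m F)} (hT : Tree x o Finset.univ τ T) (s : Letter x F → Bool)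
    (p : F ⊕ Punct x F → Bool)
    (hp : ∀ i ∈ (Finset.univ : Finset (F ⊕ Punct x F)),
      IsPathT (bar x) (Z x) (TT x T) s (p i) (face x i) (p i)) :
    ∃ c, (∀ i ∈ (Finset.univ : Finset (F ⊕ Punct x F)), p i = c) ∧
      ∀ i ∈ (Finset.univ : Finset (F ⊕ Punct x F)), ∀ d ∈ face x i, ¬ Z x d → s d = c := by
  classical
  -- the positions on the white faces
  have hw : ∀ f : F, ∃ P : ℕ → Bool, P 0 = p (Sum.inl f) ∧ P (m + 1) = p (Sum.inl f) ∧
      ∀ i : Fin (m + 1), s (Sum.inl (i, (par x i)⁻¹ • f, true)) = P i ∧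
        ((i, (par x i)⁻¹ • f, true) ∈ T → P (i + 1) = P i) ∧
        ((i, (par x i)⁻¹ • f, true) ∉ T →
          P (i + 1) = s (Sum.inl (i, (par x i)⁻¹ • f, false))) := by
    intro f
    have h1 := hp (Sum.inl f) (Finset.mem_univ _)
    obtain ⟨P, h2, h3, h4⟩ := isPathT_ofFn _ (fun i => not_Z x _) h1
    refine ⟨P, h2, h3, fun i => ?_⟩
    obtain ⟨h5, h6, h7⟩ := h4 i
    exact ⟨h5, fun h => h6 ((TT_inl x).2 h), fun h => h7 (fun h' => h ((TT_inl x).1 h'))⟩
  have hbl : ∀ c : Punct x F, ∃ P : ℕ → Bool, P 0 = p (Sum.inr c) ∧ P (per x c) = p (Sum.inr c) ∧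
      ∀ k : Fin (per x c), s (Sum.inl (c.1, x c.1 ^ ((k : ℕ) + 1) • rep x c, false)) = P k ∧
        ((c.1, x c.1 ^ ((k : ℕ) + 1) • rep x c, false) ∈ T → P (k + 1) = P k) ∧
        ((c.1, x c.1 ^ ((k : ℕ) + 1) • rep x c, false) ∉ T →
          P (k + 1) = s (Sum.inl (c.1, x c.1 ^ ((k : ℕ) + 1) • rep x c, true))) := by
    intro c
    have h1 := hp (Sum.inr c) (Finset.mem_univ _)
    change IsPathT (bar x) (Z x) (TT x T) s (p (Sum.inr c)) (black x c) (p (Sum.inr c)) at h1
    unfold black at h1
    rw [isPathT_append] at h1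
    obtain ⟨q, h1, hq⟩ := h1
    rw [isPathT_cons_Z (Z_inr x _)] at hq
    have hq' : q = p (Sum.inr c) := hq
    subst hq'
    obtain ⟨P, h2, h3, h4⟩ := isPathT_ofFn _ (fun i => not_Z x _) h1
    refine ⟨P, h2, h3, fun i => ?_⟩
    obtain ⟨h5, h6, h7⟩ := h4 i
    exact ⟨h5, fun h => h6 ((TT_inl x).2 h), fun h => h7 (fun h' => h ((TT_inl x).1 h'))⟩
  -- the relation between consecutive letters
  let s' : Dart m F → Bool := fun d => s (Sum.inl d)
  have hrel : ∀ d : Dart m F, (d ∈ T → s' (sig x (rev d)) = s' d) ∧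
      (d ∉ T → s' (sig x (rev d)) = s' (rev d)) := by
    rintro ⟨i, f, b⟩
    cases b
    · -- black
      change ((i, f, false) ∈ T → s' (sig x (i, f, true)) = s' (i, f, false)) ∧
        ((i, f, false) ∉ T → s' (sig x (i, f, true)) = s' (i, f, true))
      rw [sig_true]
      obtain ⟨k, hk⟩ | hk := (mem_black x).1 (exists_black x i f)
      · simp only [Sum.inl.injEq, Prod.mk.injEq, true_and, and_true] at hk
        obtain ⟨P, hP0, hP1, hP⟩ := hbl ⟨i, Quotient.mk _ f⟩
        obtain ⟨h1, h2, h3⟩ := hP k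
        dsimp only at h1 h2 h3
        rw [← hk] at h1 h2 h3
        have h4 : s' (i, x i • f, false) = P (k + 1) := by
          by_cases hlast : (k : ℕ) + 1 < per x (⟨i, Quotient.mk _ f⟩ : Punct x F)
          · obtain ⟨h5, -, -⟩ := hP ⟨(k : ℕ) + 1, hlast⟩
            dsimp only at h5
            rw [pow_succ', mul_smul, ← hk] at h5
            exact h5
          · have hk1 : (k : ℕ) + 1 = per x (⟨i, Quotient.mk _ f⟩ : Punct x F) := by
              have := k.2
              omega
            rw [hk1, hP1, ← hP0]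
            obtain ⟨h5, -, -⟩ := hP ⟨0, per_pos x _⟩
            dsimp only at h5
            rw [← h5]
            have h6 : x i • f = x i ^ (0 + 1) • rep x (⟨i, Quotient.mk _ f⟩ : Punct x F) := by
              rw [pow_succ', mul_smul, pow_zero, one_smul]
              congr 1
              conv_lhs => rw [hk]
              rw [hk1]
              exact pow_period_smul _ _
            rw [← h6]
        refine ⟨fun h => ?_, fun h => ?_⟩
        · rw [h4, h2 h]
          exact h1.symm
        · rw [h4]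
          exact h3 h
      · simp at hk
    · -- white
      change ((i, f, true) ∈ T → s' (sig x (i, f, false)) = s' (i, f, true)) ∧
        ((i, f, true) ∉ T → s' (sig x (i, f, false)) = s' (i, f, false))
      rw [sig_false]
      obtain ⟨P, hP0, hP1, hP⟩ := hw (par x i • f)
      obtain ⟨h1, h2, h3⟩ := hP i
      rw [inv_smul_smul] at h1 h2 h3
      have h4 : s' (i + 1, (x i)⁻¹ • f, true) = P (i + 1) := by
        have e : (par x ((i : ℕ) + 1))⁻¹ • par x i • f = (x i)⁻¹ • f := by
          rw [par_succ, mul_inv_rev, mul_smul, inv_smul_smul]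
        by_cases hlast : (i : ℕ) < m
        · have hi1 : ((i + 1 : Fin (m + 1)) : ℕ) = (i : ℕ) + 1 := by
            rw [Fin.val_add_one_of_lt]
            exact Fin.lt_def.2 (by simpa using hlast)
          obtain ⟨h5, -, -⟩ := hP (i + 1)
          rw [hi1, e] at h5
          exact h5
        · have him : (i : ℕ) = m := by have := i.2; omega
          have hi0 : i + 1 = 0 := by
            have : i = Fin.last m := Fin.ext him
            rw [this]
            exact Fin.last_add_one m
          rw [hi0]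
          obtain ⟨h5, -, -⟩ := hP 0
          have e0 : ((0 : Fin (m + 1)) : ℕ) = 0 := rfl
          rw [e0, par_zero, inv_one, one_smul, hP0, ← hP1] at h5
          rw [him] at e ⊢
          rw [par_last x hx, inv_one, one_smul] at e
          rw [← h5]
          rw [← e, him]
      refine ⟨fun h => ?_, fun h => ?_⟩
      · rw [h4, h2 h]
        exact h1.symm
      · rw [h4]
        exact h3 h
  obtain ⟨c, hc⟩ := hT.conn s' (fun d _ hd => by
      have h := (hrel (rev d)).2 (fun h => hd (by
        have := hT.T_rev _ h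
        rwa [rev_rev] at this))
      rwa [rev_rev] at h) (fun d _ hd => (hrel d).1 hd)
  refine ⟨c, fun i _ => ?_, fun i _ d hd hZ => ?_⟩
  · rcases i with f | c'
    · obtain ⟨P, hP0, -, hP⟩ := hw f
      rw [← hP0]
      obtain ⟨h1, -, -⟩ := hP 0
      exact h1.symm.trans (hc _ (Finset.mem_univ _))
    · obtain ⟨P, hP0, -, hP⟩ := hbl c'
      rw [← hP0]
      obtain ⟨h1, -, -⟩ := hP ⟨0, per_pos x c'⟩
      exact h1.symm.trans (hc _ (Finset.mem_univ _))
  · rcases d with d | p
    · exact hc d (Finset.mem_univ _)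
    · exact absurd (Z_inr x p) hZ

end

end Groth.Agent.Pi1.H568.Cover
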