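import Groth.Agent.Pi1.H568.Erase
import Mathlib.GroupTheory.GroupAction.Basic
import Mathlib.GroupTheory.GroupAction.Quotient
import Mathlib.Algebra.BigOperators.Fin
import Mathlib.Data.Fintype.Prod
import Mathlib.Data.Fintype.BigOperators
import Mathlib.Algebra.Order.BigOperators.Group.Finset

/-!
# The ribbon graph of a finite transitive action and its spanning trees
-/

set_option autoImplicit false

universe u v w

namespace Groth.Agent.Pi1.H568.Darts

variable {m : ℕ} {Γ : Type u} [Group Γ] (x : Fin (m + 1) → Γ) {F : Type v} [MulAction Γ F]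

/-- the darts: `(i, f, true)` goes from `f` to `(x i)⁻¹ • f`, `(i, f, false)` is its inverse. -/
abbrev Dart (m : ℕ) (F : Type v) : Type v := Fin (m + 1) × F × Bool

/-- the inverse dart -/
def rev (d : Dart m F) : Dart m F := (d.1, d.2.1, !d.2.2)

/-- the starting point -/
def st (d : Dart m F) : F := if d.2.2 then d.2.1 else (x d.1)⁻¹ • d.2.1

/-- rotation around the starting point -/
def sig (d : Dart m F) : Dart m F :=
  if d.2.2 then (d.1, x d.1 • d.2.1, false) else (d.1 + 1, (x d.1)⁻¹ • d.2.1, true)

@[simp] lemma rev_rev (d : Dart m F) : rev (rev d) = d := by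
  obtain ⟨i, f, b⟩ := d
  cases b <;> rfl

lemma rev_ne (d : Dart m F) : rev d ≠ d := by
  obtain ⟨i, f, b⟩ := d
  cases b <;> simp [rev]

lemma st_true (i : Fin (m + 1)) (f : F) : st x (i, f, true) = f := rfl
lemma st_false (i : Fin (m + 1)) (f : F) : st x (i, f, false) = (x i)⁻¹ • f := rfl
lemma sig_true (i : Fin (m + 1)) (f : F) : sig x (i, f, true) = (i, x i • f, false) := rfl
lemma sig_false (i : Fin (m + 1)) (f : F) : sig x (i, f, false) = (i + 1, (x i)⁻¹ • f, true) := rfl

@[simp] lemma st_sig (d : Dart m F) : st x (sig x d) = st x d := by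
  obtain ⟨i, f, b⟩ := d
  cases b
  · rw [sig_false, st_true, st_false]
  · rw [sig_true, st_true, st_false, inv_smul_smul]

lemma sig_injective : Function.Injective (sig x : Dart m F → Dart m F) := by
  rintro ⟨i, f, b⟩ ⟨i', f', b'⟩ h
  cases b <;> cases b'
  · rw [sig_false, sig_false, Prod.mk.injEq, Prod.mk.injEq] at h
    obtain ⟨h1, h2, -⟩ := h
    have : i = i' := add_right_cancel h1
    subst this
    rw [smul_left_cancel_iff] at h2
    rw [h2]
  · rw [sig_false, sig_true, Prod.mk.injEq, Prod.mk.injEq] at h
    simp at h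
  · rw [sig_false, sig_true, Prod.mk.injEq, Prod.mk.injEq] at h
    simp at h
  · rw [sig_true, sig_true, Prod.mk.injEq, Prod.mk.injEq] at h
    obtain ⟨h1, h2, -⟩ := h
    subst h1
    rw [smul_left_cancel_iff] at h2
    rw [h2]

/-- the darts at a vertex form one cycle of the rotation -/
lemma vertex_conn (s : Dart m F → Bool) (f : F) (hs : ∀ d, st x d = f → s (sig x d) = s d) :
    ∃ c, ∀ d, st x d = f → s d = c := by
  have h1 : ∀ i : Fin (m + 1), s (i + 1, f, true) = s (i, f, true) := by
    intro i
    have h1 := hs (i, f, true) (st_true x i f)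
    rw [sig_true] at h1
    have h2 := hs (i, x i • f, false) (by rw [st_false, inv_smul_smul])
    rw [sig_false, inv_smul_smul] at h2
    rw [h2, h1]
  have h2 : ∀ i : Fin (m + 1), s (i, f, true) = s (0, f, true) := by
    intro i
    induction i using Fin.induction with
    | zero => rfl
    | succ i ih =>
      rw [← Fin.coeSucc_eq_succ, h1]
      exact ih
  refine ⟨s (0, f, true), ?_⟩
  rintro ⟨i, f', b⟩ hd
  cases b
  · rw [st_false] at hd
    have : f' = x i • f := by rw [← hd, smul_inv_smul]
    subst this
    rw [← sig_true, hs _ (st_true x i f), h2]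
  · rw [st_true] at hd
    subst hd
    exact h2 i

/-- An injective self-map of a finite set for which a labelling is invariant at all points but one,
is invariant at this point, too. -/
lemma all_but_one {X : Type w} [DecidableEq X] (A : Finset X) (π : X → X)
    (hmap : ∀ a ∈ A, π a ∈ A) (hinj : Set.InjOn π A) (s : X → Bool) (t : X)
    (hs : ∀ a ∈ A, a ≠ t → s (π a) = s a) : ∀ a ∈ A, s (π a) = s a := by
  intro a ha
  by_cases hat : a = t
  · subst hat
    have himg : A.image π = A := by
      apply Finset.eq_of_subset_of_card_le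
      · intro b hb
        obtain ⟨c, hc, rfl⟩ := Finset.mem_image.1 hb
        exact hmap c hc
      · rw [Finset.card_image_of_injOn hinj]
    have h1 : ∑ b ∈ A, (s (π b)).toNat = ∑ b ∈ A, (s b).toNat := by
      conv_rhs => rw [← himg]
      rw [Finset.sum_image hinj]
    rw [← Finset.add_sum_erase _ _ ha, ← Finset.add_sum_erase _ _ ha] at h1
    have h2 : ∑ b ∈ A.erase a, (s (π b)).toNat = ∑ b ∈ A.erase a, (s b).toNat := by
      refine Finset.sum_congr rfl fun b hb => ?_
      rw [hs b (Finset.mem_erase.1 hb).2 (Finset.mem_erase.1 hb).1]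
    rw [h2] at h1
    have h3 : (s (π a)).toNat = (s a).toNat := by omega
    revert h3
    cases s (π a) <;> cases s a <;> simp
  · exact hs a ha hat

/-- the value of a dart -/
def hval (τ : F → Γ) (d : Dart m F) : Γ :=
  if d.2.2 then (τ d.2.1)⁻¹ * x d.1 * τ ((x d.1)⁻¹ • d.2.1)
  else ((τ d.2.1)⁻¹ * x d.1 * τ ((x d.1)⁻¹ • d.2.1))⁻¹

lemma hval_true (τ : F → Γ) (i : Fin (m + 1)) (f : F) :
    hval x τ (i, f, true) = (τ f)⁻¹ * x i * τ ((x i)⁻¹ • f) := rfl

lemma hval_false (τ : F → Γ) (i : Fin (m + 1)) (f : F) :
    hval x τ (i, f, false) = ((τ f)⁻¹ * x i * τ ((x i)⁻¹ • f))⁻¹ := rfl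

lemma hval_rev (τ : F → Γ) (d : Dart m F) : hval x τ (rev d) = (hval x τ d)⁻¹ := by
  obtain ⟨i, f, b⟩ := d
  cases b
  · change hval x τ (i, f, true) = (hval x τ (i, f, false))⁻¹
    rw [hval_true, hval_false, inv_inv]
  · rfl

lemma hval_congr {τ τ' : F → Γ} {d : Dart m F} (h1 : τ (st x d) = τ' (st x d))
    (h2 : τ (st x (rev d)) = τ' (st x (rev d))) : hval x τ d = hval x τ' d := by
  obtain ⟨i, f, b⟩ := d
  cases b
  · change τ (st x (i, f, false)) = τ' (st x (i, f, false)) at h1
    change τ (st x (i, f, true)) = τ' (st x (i, f, true)) at h2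
    rw [st_false] at h1
    rw [st_true] at h2
    rw [hval_false, hval_false, h1, h2]
  · change τ (st x (i, f, true)) = τ' (st x (i, f, true)) at h1
    change τ (st x (i, f, false)) = τ' (st x (i, f, false)) at h2
    rw [st_true] at h1
    rw [st_false] at h2
    rw [hval_true, hval_true, h1, h2]

/-- A spanning tree of a set `M` of vertices. -/
structure Tree (o : F) (M : Finset F) (τ : F → Γ) (T : Finset (Dart m F)) : Prop where
  o_mem : o ∈ M
  τ_o : τ o = 1
  τ_spec : ∀ f ∈ M, τ f • o = f
  T_rev : ∀ d ∈ T, rev d ∈ T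
  T_st : ∀ d ∈ T, st x d ∈ M
  h_one : ∀ d ∈ T, hval x τ d = 1
  card : T.card + 2 = 2 * M.card
  conn : ∀ s : Dart m F → Bool, (∀ d, st x d ∈ M → d ∉ T → s (sig x d) = s d) →
    (∀ d, st x d ∈ M → d ∈ T → s (sig x (rev d)) = s d) → ∃ c, ∀ d, st x d ∈ M → s d = c

lemma tree_single (o : F) : Tree x o {o} (fun _ => 1) ∅ := by
  refine ⟨by simp, rfl, by simp, by simp, by simp, by simp, by simp, fun s hs _ => ?_⟩
  obtain ⟨c, hc⟩ := vertex_conn x s o (fun d hd => hs d (by simp [hd]) (by simp))
  exact ⟨c, fun d hd => hc d (by simpa using hd)⟩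

lemma Tree.step [Finite F] [DecidableEq F] {o : F} {M : Finset F} {τ : F → Γ}
    {T : Finset (Dart m F)} (h : Tree x o M τ T) {f : F} (hf : f ∈ M) (i : Fin (m + 1))
    (hi : (x i)⁻¹ • f ∉ M) :
    Tree x o (insert ((x i)⁻¹ • f) M) (Function.update τ ((x i)⁻¹ • f) ((x i)⁻¹ * τ f))
      (insert (i, f, true) (insert (i, f, false) T)) := by
  classical
  have := Fintype.ofFinite F
  set f' := (x i)⁻¹ • f with hf'
  have hne : ∀ g ∈ M, g ≠ f' := fun g hg e => hi (e ▸ hg)
  have ht1 : ((i, f, false) : Dart m F) ∉ T := fun hT => hi (h.T_st _ hT)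
  have ht2 : ((i, f, true) : Dart m F) ∉ T := fun hT => ht1 (h.T_rev _ hT)
  have ht3 : ((i, f, true) : Dart m F) ∉ insert (i, f, false) T := by
    rw [Finset.mem_insert, not_or]
    exact ⟨by simp, ht2⟩
  refine ⟨by simp [h.o_mem], ?_, ?_, ?_, ?_, ?_, ?_, ?_⟩
  · rw [Function.update_of_ne (hne o h.o_mem)]
    exact h.τ_o
  · intro g hg
    rw [Finset.mem_insert] at hg
    rcases hg with rfl | hg
    · rw [Function.update_self, mul_smul, h.τ_spec f hf]
    · rw [Function.update_of_ne (hne g hg)]
      exact h.τ_spec g hg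
  · intro d hd
    simp only [Finset.mem_insert] at hd ⊢
    rcases hd with rfl | rfl | hd
    · right; left; rfl
    · left; rfl
    · right; right; exact h.T_rev d hd
  · intro d hd
    simp only [Finset.mem_insert] at hd ⊢
    rcases hd with rfl | rfl | hd
    · right; exact hf
    · left; rfl
    · right; exact h.T_st d hd
  · intro d hd
    simp only [Finset.mem_insert] at hd
    have hone : hval x (Function.update τ f' ((x i)⁻¹ * τ f)) (i, f, true) = 1 := by
      rw [hval_true, ← hf', Function.update_self, Function.update_of_ne (hne f hf)]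
      group
    rcases hd with rfl | rfl | hd
    · exact hone
    · have := hval_rev x (Function.update τ f' ((x i)⁻¹ * τ f)) (i, f, true)
      rw [hone, inv_one] at this
      exact this
    · rw [← h.h_one d hd]
      refine hval_congr x ?_ ?_
      · rw [Function.update_of_ne (hne _ (h.T_st d hd))]
      · rw [Function.update_of_ne (hne _ (h.T_st _ (h.T_rev d hd)))]
  · rw [Finset.card_insert_of_notMem ht3, Finset.card_insert_of_notMem ht1,
      Finset.card_insert_of_notMem hi]
    have := h.card
    omega
  · intro s hs1 hs2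
    -- the part at `M`
    let A : Finset (Dart m F) := Finset.univ.filter fun d => st x d ∈ M
    let π : Dart m F → Dart m F := fun d => if d ∈ T then sig x (rev d) else sig x d
    have hπT : ∀ d, d ∈ T → π d = sig x (rev d) := fun d hd => if_pos hd
    have hπN : ∀ d, d ∉ T → π d = sig x d := fun d hd => if_neg hd
    have hmap : ∀ a ∈ A, π a ∈ A := by
      intro a ha
      rw [Finset.mem_filter] at ha ⊢
      refine ⟨Finset.mem_univ _, ?_⟩
      by_cases haT : a ∈ T
      · rw [hπT a haT, st_sig]
        exact h.T_st _ (h.T_rev a haT)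
      · rw [hπN a haT, st_sig]
        exact ha.2
    have hinj : Set.InjOn π A := by
      intro a ha b hb hab
      by_cases haT : a ∈ T
      · by_cases hbT : b ∈ T
        · rw [hπT a haT, hπT b hbT] at hab
          have := sig_injective x hab
          rw [← rev_rev a, this, rev_rev]
        · rw [hπT a haT, hπN b hbT] at hab
          have := sig_injective x hab
          exact absurd (this ▸ h.T_rev a haT) hbT
      · by_cases hbT : b ∈ T
        · rw [hπN a haT, hπT b hbT] at hab
          have := sig_injective x hab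
          exact absurd (this.symm ▸ h.T_rev b hbT) haT
        · rw [hπN a haT, hπN b hbT] at hab
          exact sig_injective x hab
    have hA := all_but_one A π hmap hinj s (i, f, true) (by
      intro a ha hat
      have haM : st x a ∈ M := (Finset.mem_filter.1 ha).2
      by_cases haT : a ∈ T
      · rw [hπT a haT]
        exact hs2 a (by simp [haM]) (by simp [haT])
      · rw [hπN a haT]
        refine hs1 a (by simp [haM]) ?_
        simp only [Finset.mem_insert, not_or]
        refine ⟨hat, ?_, haT⟩
        rintro rfl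
        exact hi haM)
    obtain ⟨c, hc⟩ := h.conn s (by
      intro d hd hdT
      have := hA d (by simp [A, hd])
      rwa [hπN d hdT] at this) (by
      intro d hd hdT
      have := hA d (by simp [A, hd])
      rwa [hπT d hdT] at this)
    -- the part at `f'`
    let B : Finset (Dart m F) := Finset.univ.filter fun d => st x d = f'
    have hB := all_but_one B (sig x) (by
      intro a ha
      rw [Finset.mem_filter] at ha ⊢
      exact ⟨Finset.mem_univ _, by rw [st_sig]; exact ha.2⟩) ((sig_injective x).injOn) s
      (i, f, false) (by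
        intro a ha hat
        have haf : st x a = f' := (Finset.mem_filter.1 ha).2
        refine hs1 a (by simp [haf]) ?_
        simp only [Finset.mem_insert, not_or]
        refine ⟨?_, hat, fun haT => hi (haf ▸ h.T_st a haT)⟩
        rintro rfl
        rw [st_true] at haf
        exact hi (haf ▸ hf))
    obtain ⟨c', hc'⟩ := vertex_conn x s f' (fun d hd => hB d (by simp [B, hd]))
    have hcc : c' = c := by
      have h1 := hs2 (i, f, true) (by rw [st_true]; simp [hf]) (by simp)
      rw [hc (i, f, true) hf] at h1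
      have h2 : s (sig x (rev (i, f, true))) = c' := hc' _ (by
        rw [st_sig]; rfl)
      rw [← h1, ← h2]
    refine ⟨c, fun d hd => ?_⟩
    rw [Finset.mem_insert] at hd
    rcases hd with hd | hd
    · rw [hc' d hd, hcc]
    · exact hc d hd

/-- a nonempty set of vertices stable under the inverses of the generators is everything -/
lemma eq_univ_of_stable [Fintype F] [MulAction.IsPretransitive Γ F]
    (hgen : Subgroup.closure (Set.range x) = ⊤) {o : F} {M : Finset F} (ho : o ∈ M)
    (hM : ∀ f ∈ M, ∀ i, (x i)⁻¹ • f ∈ M) : M = Finset.univ := by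
  classical
  let K : Subgroup Γ :=
    { carrier := {γ | ∀ f : F, γ • f ∈ M ↔ f ∈ M}
      one_mem' := fun f => by rw [one_smul]
      mul_mem' := fun {a b} ha hb f => by rw [mul_smul, ha, hb]
      inv_mem' := fun {a} ha f => by
        have := ha (a⁻¹ • f)
        rw [smul_inv_smul] at this
        exact this.symm }
  have hK : ∀ i, x i ∈ K := by
    intro i
    rw [← K.inv_mem_iff]
    intro f
    refine ⟨fun hf => ?_, fun hf => hM f hf i⟩
    have himg : M.image (fun g => (x i)⁻¹ • g) = M := by
      apply Finset.eq_of_subset_of_card_le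
      · intro b hb
        obtain ⟨c, hc, rfl⟩ := Finset.mem_image.1 hb
        exact hM c hc i
      · rw [Finset.card_image_of_injective _ (MulAction.injective _)]
    rw [← himg] at hf
    obtain ⟨g, hg, hgf⟩ := Finset.mem_image.1 hf
    have : g = f := MulAction.injective _ hgf
    rwa [← this]
  have hK' : K = ⊤ := by
    rw [eq_top_iff, ← hgen, Subgroup.closure_le]
    rintro _ ⟨i, rfl⟩
    exact hK i
  rw [Finset.eq_univ_iff_forall]
  intro f
  obtain ⟨γ, rfl⟩ := MulAction.exists_smul_eq Γ o f
  have : γ ∈ K := by rw [hK']; trivial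
  exact (this o).2 ho

/-- existence of spanning trees -/
theorem exists_tree [Fintype F] [MulAction.IsPretransitive Γ F]
    (hgen : Subgroup.closure (Set.range x) = ⊤) (o : F) :
    ∃ (τ : F → Γ) (T : Finset (Dart m F)), Tree x o Finset.univ τ T := by
  classical
  have key : ∀ n : ℕ, n + 1 ≤ Fintype.card F →
      ∃ (M : Finset F) (τ : F → Γ) (T : Finset (Dart m F)), M.card = n + 1 ∧ Tree x o M τ T := by
    intro n
    induction n with
    | zero => exact fun _ => ⟨{o}, _, _, by simp, tree_single x o⟩
    | succ n ih =>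
      intro hn
      obtain ⟨M, τ, T, hM, hT⟩ := ih (by omega)
      by_cases hst : ∀ f ∈ M, ∀ i, (x i)⁻¹ • f ∈ M
      · have := eq_univ_of_stable x hgen hT.o_mem hst
        rw [this, Finset.card_univ] at hM
        omega
      · push Not at hst
        obtain ⟨f, hf, i, hi⟩ := hst
        refine ⟨_, _, _, ?_, hT.step x hf i hi⟩
        rw [Finset.card_insert_of_notMem hi, hM]
  have hpos : 0 < Fintype.card F := Fintype.card_pos_iff.2 ⟨o⟩
  obtain ⟨M, τ, T, hM, hT⟩ := key (Fintype.card F - 1) (by omega)
  have : M = Finset.univ := by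
    rw [← Finset.card_eq_iff_eq_univ, hM]
    omega
  subst this
  exact ⟨τ, T, hT⟩

/-- Schreier's lemma -/
theorem schreier (hgen : Subgroup.closure (Set.range x) = ⊤) (τ : F → Γ) (K : Subgroup Γ)
    (hK : ∀ d : Dart m F, hval x τ d ∈ K) (γ : Γ) (f : F) : (τ (γ • f))⁻¹ * γ * τ f ∈ K := by
  have hγ : γ ∈ Subgroup.closure (Set.range x) := by rw [hgen]; trivial
  induction hγ using Subgroup.closure_induction generalizing f with
  | mem y hy =>
    obtain ⟨i, rfl⟩ := hy
    have := hK (i, x i • f, true)
    rwa [hval_true, inv_smul_smul] at this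
  | one => simp
  | mul a b _ _ ha hb =>
    have h1 := K.mul_mem (ha (b • f)) (hb f)
    have e : (τ (a • b • f))⁻¹ * a * τ (b • f) * ((τ (b • f))⁻¹ * b * τ f) =
        (τ ((a * b) • f))⁻¹ * (a * b) * τ f := by
      rw [mul_smul]; group
    rwa [e] at h1
  | inv a _ ha =>
    have h1 := K.inv_mem (ha (a⁻¹ • f))
    rw [smul_inv_smul] at h1
    have e : ((τ f)⁻¹ * a * τ (a⁻¹ • f))⁻¹ = (τ (a⁻¹ • f))⁻¹ * a⁻¹ * τ f := by group
    rwa [e] at h1

/-- the values of the darts stabilise `o` -/
lemma hval_mem_stabilizer {o : F} {τ : F → Γ} (hτ : ∀ f, τ f • o = f) (d : Dart m F) :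
    hval x τ d ∈ MulAction.stabilizer Γ o := by
  obtain ⟨i, f, b⟩ := d
  have h : hval x τ (i, f, true) ∈ MulAction.stabilizer Γ o := by
    rw [hval_true, MulAction.mem_stabilizer_iff, mul_smul, mul_smul, hτ, smul_inv_smul,
      inv_smul_eq_iff, hτ]
  cases b
  · exact (MulAction.stabilizer Γ o).inv_mem h
  · exact h

/-- the stabiliser is generated by the values of the darts -/
theorem stabilizer_le {o : F} {τ : F → Γ} (hgen : Subgroup.closure (Set.range x) = ⊤)
    (hτo : τ o = 1) (K : Subgroup Γ) (hK : ∀ d : Dart m F, hval x τ d ∈ K) :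
    MulAction.stabilizer Γ o ≤ K := by
  intro γ hγ
  have := schreier x hgen τ K hK γ o
  rw [MulAction.mem_stabilizer_iff.1 hγ, hτo] at this
  simpa using this

end Groth.Agent.Pi1.H568.Darts
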