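import Groth.Agent.Pi1.H568.Merge
import Mathlib.Data.List.OfFn

/-!
# Erasing the letters of a spanning tree
-/

set_option autoImplicit false

universe u v w

namespace Groth.Agent.Pi1.H568.Erase

open Groth.Agent.Pi1.H568.Word Groth.Agent.Pi1.H568.Handle Groth.Agent.Pi1.H568.Merge

variable {D : Type u} {bar : D → D} {Z : D → Prop} {T : D → Prop} {ι : Type w}

/-- paths in which the letters satisfying `T` (which are labelled, too) do not move the position -/
def IsPathT (bar : D → D) (Z T : D → Prop) (s : D → Bool) : Bool → List D → Bool → Prop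
  | p, [], q => p = q
  | p, x :: l, q => (Z x ∧ IsPathT bar Z T s p l q) ∨
      (¬ Z x ∧ T x ∧ s x = p ∧ IsPathT bar Z T s p l q) ∨
      (¬ Z x ∧ ¬ T x ∧ s x = p ∧ IsPathT bar Z T s (s (bar x)) l q)

lemma isPathT_cons_Z {s : D → Bool} {p q : Bool} {x : D} {l : List D} (hx : Z x) :
    IsPathT bar Z T s p (x :: l) q ↔ IsPathT bar Z T s p l q := by
  simp [IsPathT, hx]

lemma isPathT_cons_T {s : D → Bool} {p q : Bool} {x : D} {l : List D} (hx : ¬ Z x) (hT : T x) :
    IsPathT bar Z T s p (x :: l) q ↔ s x = p ∧ IsPathT bar Z T s p l q := by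
  simp [IsPathT, hx, hT]

lemma isPathT_cons {s : D → Bool} {p q : Bool} {x : D} {l : List D} (hx : ¬ Z x) (hT : ¬ T x) :
    IsPathT bar Z T s p (x :: l) q ↔ s x = p ∧ IsPathT bar Z T s (s (bar x)) l q := by
  simp [IsPathT, hx, hT]

lemma isPathT_append {s : D → Bool} {p q : Bool} {l₁ l₂ : List D} :
    IsPathT bar Z T s p (l₁ ++ l₂) q ↔
      ∃ m, IsPathT bar Z T s p l₁ m ∧ IsPathT bar Z T s m l₂ q := by
  induction l₁ generalizing p with
  | nil => simp [IsPathT]
  | cons x l ih =>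
    by_cases hx : Z x
    · simp only [List.cons_append, isPathT_cons_Z hx, ih]
    · by_cases hT : T x
      · simp only [List.cons_append, isPathT_cons_T hx hT, ih]
        constructor
        · rintro ⟨h1, m, h2, h3⟩
          exact ⟨m, ⟨h1, h2⟩, h3⟩
        · rintro ⟨m, ⟨h1, h2⟩, h3⟩
          exact ⟨h1, m, h2, h3⟩
      · simp only [List.cons_append, isPathT_cons hx hT, ih]
        constructor
        · rintro ⟨h1, m, h2, h3⟩
          exact ⟨m, ⟨h1, h2⟩, h3⟩
        · rintro ⟨m, ⟨h1, h2⟩, h3⟩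
          exact ⟨h1, m, h2, h3⟩

lemma isPathT_congr {s s' : D → Bool} {p q : Bool} {l : List D}
    (h : ∀ x ∈ l, ¬ Z x → s x = s' x ∧ (¬ T x → s (bar x) = s' (bar x)))
    (hp : IsPathT bar Z T s p l q) : IsPathT bar Z T s' p l q := by
  induction l generalizing p with
  | nil => exact hp
  | cons x l ih =>
    by_cases hx : Z x
    · rw [isPathT_cons_Z hx] at hp ⊢
      exact ih (fun y hy => h y (List.mem_cons_of_mem _ hy)) hp
    · obtain ⟨h1, h2⟩ := h x List.mem_cons_self hx
      by_cases hT : T x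
      · rw [isPathT_cons_T hx hT] at hp ⊢
        rw [← h1]
        exact ⟨hp.1, ih (fun y hy => h y (List.mem_cons_of_mem _ hy)) hp.2⟩
      · rw [isPathT_cons hx hT] at hp ⊢
        rw [← h1, ← h2 hT]
        exact ⟨hp.1, ih (fun y hy => h y (List.mem_cons_of_mem _ hy)) hp.2⟩

/-- the positions of a path through a list given by a function -/
lemma isPathT_ofFn {s : D → Bool} {n : ℕ} : ∀ {p q : Bool} (l : Fin n → D) (_ : ∀ i, ¬ Z (l i))
    (_ : IsPathT bar Z T s p (List.ofFn l) q),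
    ∃ P : ℕ → Bool, P 0 = p ∧ P n = q ∧ ∀ i : Fin n, s (l i) = P i ∧
      (T (l i) → P (i + 1) = P i) ∧ (¬ T (l i) → P (i + 1) = s (bar (l i))) := by
  induction n with
  | zero =>
    intro p q l _ hp
    exact ⟨fun _ => p, rfl, by simpa [IsPathT] using hp, fun i => i.elim0⟩
  | succ n ih =>
    intro p q l hZ hp
    rw [List.ofFn_succ] at hp
    by_cases hT : T (l 0)
    · rw [isPathT_cons_T (hZ 0) hT] at hp
      obtain ⟨P, h1, h2, h3⟩ := ih (fun i => l i.succ) (fun i => hZ _) hp.2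
      refine ⟨fun k => Nat.casesOn k p (fun k => P k), rfl, h2, fun i => ?_⟩
      refine Fin.cases ?_ (fun i => ?_) i
      · exact ⟨hp.1, fun _ => h1, fun h => absurd hT h⟩
      · exact h3 i
    · rw [isPathT_cons (hZ 0) hT] at hp
      obtain ⟨P, h1, h2, h3⟩ := ih (fun i => l i.succ) (fun i => hZ _) hp.2
      refine ⟨fun k => Nat.casesOn k p (fun k => P k), rfl, h2, fun i => ?_⟩
      refine Fin.cases ?_ (fun i => ?_) i
      · exact ⟨hp.1, fun h => absurd h hT, fun _ => h1⟩
      · exact h3 i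

/-- lifting a path from the filtered list -/
lemma exists_lift (hTb : ∀ x, T (bar x) ↔ T x) (hTZ : ∀ x, T x → ¬ Z x)
    [DecidablePred fun x => ¬ T x] (s : D → Bool) (q : Bool) :
    ∀ (l : List D) (p : Bool), l.Nodup → IsPath bar Z s p (l.filter fun x => ¬ T x) q →
      ∃ s' : D → Bool, (∀ y, ¬ T y → s' y = s y) ∧ IsPathT bar Z T s' p l q := by
  classical
  intro l
  induction l with
  | nil =>
    intro p _ hp
    exact ⟨s, fun _ _ => rfl, hp⟩
  | cons x l ih =>
    intro p hnd hp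
    rw [List.nodup_cons] at hnd
    by_cases hx : Z x
    · have hT : ¬ T x := fun h => hTZ x h hx
      rw [List.filter_cons_of_pos (by simpa using hT), isPath_cons_Z hx] at hp
      obtain ⟨s', h1, h2⟩ := ih p hnd.2 hp
      exact ⟨s', h1, (isPathT_cons_Z hx).2 h2⟩
    · by_cases hT : T x
      · rw [List.filter_cons_of_neg (by simpa using hT)] at hp
        obtain ⟨s', h1, h2⟩ := ih p hnd.2 hp
        refine ⟨Function.update s' x p, fun y hy => ?_, ?_⟩
        · rw [Function.update_of_ne (by rintro rfl; exact hy hT)]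
          exact h1 y hy
        · rw [isPathT_cons_T hx hT, Function.update_self]
          refine ⟨rfl, isPathT_congr (fun z hz hzZ => ?_) h2⟩
          have e1 : z ≠ x := fun e => hnd.1 (e ▸ hz)
          refine ⟨by rw [Function.update_of_ne e1], fun hzT => ?_⟩
          have e2 : bar z ≠ x := fun e => hzT ((hTb z).1 (e ▸ hT))
          rw [Function.update_of_ne e2]
      · rw [List.filter_cons_of_pos (by simpa using hT), isPath_cons hx] at hp
        obtain ⟨s', h1, h2⟩ := ih _ hnd.2 hp.2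
        refine ⟨s', h1, (isPathT_cons hx hT).2 ⟨(h1 x hT).trans hp.1, ?_⟩⟩
        rw [h1 (bar x) (fun h => hT ((hTb x).1 h))]
        exact h2

/-- **Erasing lemma.** -/
theorem Sys.erase (hTb : ∀ x, T (bar x) ↔ T x) (hTZ : ∀ x, T x → ¬ Z x)
    [DecidablePred fun x => ¬ T x] {S : Finset ι} {face : ι → List D}
    (nodup : ∀ i ∈ S, (face i).Nodup)
    (disj : ∀ i ∈ S, ∀ j ∈ S, ∀ x, x ∈ face i → x ∈ face j → i = j)
    (mem : ∀ i ∈ S, ∀ x ∈ face i, ¬ Z x → ∃ j ∈ S, bar x ∈ face j)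
    (conn : ∀ (s : D → Bool) (p : ι → Bool), (∀ i ∈ S, IsPathT bar Z T s (p i) (face i) (p i)) →
      ∃ c, (∀ i ∈ S, p i = c) ∧ ∀ i ∈ S, ∀ x ∈ face i, ¬ Z x → s x = c) :
    Sys bar Z S (fun i => (face i).filter fun x => ¬ T x) := by
  classical
  refine ⟨fun i hi => (nodup i hi).filter _, fun i hi j hj x hx hx' => ?_, fun i hi x hx hZ => ?_,
    fun s p hp => ?_⟩
  · exact disj i hi j hj x (List.mem_filter.1 hx).1 (List.mem_filter.1 hx').1
  · obtain ⟨hx1, hx2⟩ := List.mem_filter.1 hx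
    obtain ⟨j, hj, hxj⟩ := mem i hi x hx1 hZ
    refine ⟨j, hj, List.mem_filter.2 ⟨hxj, ?_⟩⟩
    simp only [decide_eq_true_eq] at hx2 ⊢
    exact fun h => hx2 ((hTb x).1 h)
  · have hlift : ∀ i : ι, ∃ s' : D → Bool, i ∈ S →
        (∀ y, ¬ T y → s' y = s y) ∧ IsPathT bar Z T s' (p i) (face i) (p i) := by
      intro i
      by_cases hi : i ∈ S
      · obtain ⟨s', h1, h2⟩ := exists_lift hTb hTZ s (p i) (face i) (p i) (nodup i hi) (hp i hi)
        exact ⟨s', fun _ => ⟨h1, h2⟩⟩
      · exact ⟨s, fun h => absurd h hi⟩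
    choose s' hs' using hlift
    let s₀ : D → Bool := fun x =>
      if hx : T x ∧ ∃ i ∈ S, x ∈ face i then s' hx.2.choose x else s x
    have hs₀ : ∀ x, ¬ T x → s₀ x = s x := by
      intro x hx
      simp [s₀, hx]
    have hs₀T : ∀ i ∈ S, ∀ x ∈ face i, s₀ x = s' i x := by
      intro i hi x hx
      by_cases hT : T x
      · have hex : T x ∧ ∃ i ∈ S, x ∈ face i := ⟨hT, i, hi, hx⟩
        have h1 : hex.2.choose = i :=
          disj _ hex.2.choose_spec.1 i hi x hex.2.choose_spec.2 hx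
        have h2 : s₀ x = s' hex.2.choose x := by
          simp only [s₀]
          rw [dif_pos hex]
        rw [h2, h1]
      · rw [hs₀ x hT, ((hs' i hi).1 x hT)]
    obtain ⟨c, hc1, hc2⟩ := conn s₀ p (by
      intro i hi
      refine isPathT_congr (fun x hx hxZ => ⟨(hs₀T i hi x hx).symm, fun hT => ?_⟩) (hs' i hi).2
      have hT' : ¬ T (bar x) := fun h => hT ((hTb x).1 h)
      rw [hs₀ _ hT', (hs' i hi).1 _ hT'])
    refine ⟨c, hc1, fun i hi x hx hxZ => ?_⟩
    obtain ⟨hx1, hx2⟩ := List.mem_filter.1 hx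
    have hxT : ¬ T x := by simpa using hx2
    rw [← hs₀ x hxT]
    exact hc2 i hi x hx1 hxZ

end Groth.Agent.Pi1.H568.Erase
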