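import Groth.Agent.Pi1.H568.Cover

/-!
# Generators and relation of a subgroup of finite index of a surface group

Let `Γ` be generated by `x 0, …, x (r - 1)` with `x 0 * ⋯ * x (r - 1) = 1` and let `Γ` act transitively
on a finite set `F` with a point `o`.  Then the stabiliser of `o` is generated by `2 g` elements `s j`,
`t j` and, for every puncture `c` (an index `i` and an orbit of `x i` on `F`), a conjugate `z c` of the
power of `x i` given by the size of the orbit, with `∏ [s j, t j] * ∏ z c = 1`, and
`2 g - 2 + n = d (r - 2)`, where `n` is the number of punctures and `d` the number of elements of `F`.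
-/

set_option autoImplicit false

universe u v w

namespace Groth.Agent.Pi1.H568

open Groth.Agent.Pi1.H568.Word Groth.Agent.Pi1.H568.Handle Groth.Agent.Pi1.H568.Merge
  Groth.Agent.Pi1.H568.Erase Groth.Agent.Pi1.H568.Darts Groth.Agent.Pi1.H568.Cover MulAction

lemma val_filter {D : Type u} {G : Type v} [Group G] (h : D → G) (T : D → Prop)
    [DecidablePred fun x => ¬ T x] (hT : ∀ x, T x → h x = 1) (l : List D) :
    val h (l.filter fun x => ¬ T x) = val h l := by
  induction l with
  | nil => rfl
  | cons x l ih =>
    by_cases hx : T x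
    · rw [List.filter_cons_of_neg (by simpa using hx), val_cons, hT x hx, one_mul, ih]
    · rw [List.filter_cons_of_pos (by simpa using hx), val_cons, val_cons, ih]

lemma exists_list_of_forall {D : Type u} {C : Type v} (f : C → D) (l : List D)
    (h : ∀ x ∈ l, ∃ c, x = f c) : ∃ cs : List C, cs.map f = l := by
  induction l with
  | nil => exact ⟨[], rfl⟩
  | cons x l ih =>
    obtain ⟨cs, hcs⟩ := ih fun y hy => h y (List.mem_cons_of_mem _ hy)
    obtain ⟨c, hc⟩ := h x List.mem_cons_self
    exact ⟨c :: cs, by rw [List.map_cons, hcs, hc]⟩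

section

variable {m : ℕ} {Γ : Type u} [Group Γ] (x : Fin (m + 1) → Γ) {F : Type v} [MulAction Γ F]

theorem exists_generators_succ (hx : (List.ofFn x).prod = 1)
    (hgen : Subgroup.closure (Set.range x) = ⊤) [Finite F] [IsPretransitive Γ F] (o : F) :
    ∃ (H : List (Γ × Γ)) (u : Punct x F → Γ) (cs : List (Punct x F)),
      cs.Nodup ∧ (∀ c, c ∈ cs) ∧
      (∀ c, (Quotient.mk _ (u c • o) : orbitRel.Quotient (Subgroup.zpowers (x c.1)) F) = c.2) ∧
      commProd H *
        (cs.map fun c => (u c)⁻¹ * x c.1 ^ period (x c.1) (u c • o) * u c).prod = 1 ∧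
      stabilizer Γ o = Subgroup.closure (entries H ∪
        Set.range fun c => (u c)⁻¹ * x c.1 ^ period (x c.1) (u c • o) * u c) ∧
      2 * H.length + 2 * Nat.card F + cs.length = (m + 1) * Nat.card F + 2 := by
  classical
  have := Fintype.ofFinite F
  have : Finite (Punct x F) := inferInstance
  have := Fintype.ofFinite (Punct x F)
  obtain ⟨τ, T, hT⟩ := exists_tree x hgen o
  have hτ : ∀ f, τ f • o = f := fun f => hT.τ_spec f (Finset.mem_univ _)
  have hb := isBar (F := F) x
  have hTb : ∀ d : Letter x F, TT x T (bar x d) ↔ TT x T d := by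
    rintro (d | p)
    · change TT x T (Sum.inl (rev d)) ↔ _
      rw [TT_inl, TT_inl]
      exact ⟨fun h => by have := hT.T_rev _ h; rwa [rev_rev] at this, fun h => hT.T_rev _ h⟩
    · exact ⟨fun h => absurd h (TT_inr x), fun h => absurd h (TT_inr x)⟩
  have hTZ : ∀ d : Letter x F, TT x T d → ¬ Z x d := by
    rintro (d | p) h
    · exact not_Z x d
    · exact absurd h (TT_inr x)
  have hsys := Sys.erase (S := (Finset.univ : Finset (F ⊕ Punct x F))) (face := face x) hTb hTZ
    (fun i _ => face_nodup x i) (fun i _ j _ d h1 h2 => face_disj x i j d h1 h2)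
    (fun i _ d hd hZ => by
      obtain ⟨j, hj⟩ := face_mem x i d hd hZ
      exact ⟨j, Finset.mem_univ _, hj⟩)
    (face_conn x hx hT)
  have hh := hv_bar x τ
  have hTone : ∀ d : Letter x F, TT x T d → hv x τ d = 1 := by
    rintro _ ⟨d, hd, rfl⟩
    exact hT.h_one d hd
  have hrel : ∀ i ∈ (Finset.univ : Finset (F ⊕ Punct x F)),
      val (hv x τ) ((face x i).filter fun d => ¬ TT x T d) = 1 := by
    intro i _
    rw [val_filter _ _ hTone]
    rcases i with f | c
    · exact val_white x hx τ f
    · exact val_black x τ c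
  have hcard : (Finset.univ : Finset (F ⊕ Punct x F)).card =
      (Fintype.card F + Fintype.card (Punct x F) - 1) + 1 := by
    rw [Finset.card_univ, Fintype.card_sum]
    have : 0 < Fintype.card F := Fintype.card_pos_iff.2 ⟨o⟩
    omega
  obtain ⟨w, hw1, hw2, hw3, hw4, hw5⟩ := merge hb (hv x τ) hh _ _ _ hcard hsys hrel
  obtain ⟨H, w', h1, h2, h3, h4, h5, h6⟩ := normal_form hb (hv x τ) hh w.length w [] le_rfl hw1
    (by simpa [commProd] using hw2)
  -- the letters of `w'`
  have hZface : ∀ d : Letter x F, Z x d →
      ((∃ i ∈ (Finset.univ : Finset (F ⊕ Punct x F)), d ∈ (face x i).filter fun d => ¬ TT x T d) ↔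
        ∃ c, d = Sum.inr (c, true)) := by
    intro d hd
    constructor
    · rintro ⟨i, -, hi⟩
      have hi' := (List.mem_filter.1 hi).1
      rcases i with f | c
      · obtain ⟨j, rfl⟩ := (mem_white x).1 hi'
        exact absurd hd (not_Z x _)
      · rcases (mem_black x).1 hi' with ⟨j, rfl⟩ | rfl
        · exact absurd hd (not_Z x _)
        · exact ⟨c, rfl⟩
    · rintro ⟨c, rfl⟩
      refine ⟨Sum.inr c, Finset.mem_univ _, List.mem_filter.2 ⟨(mem_black x).2 (Or.inr rfl), ?_⟩⟩
      simp
  have hw' : ∀ d, d ∈ w' ↔ ∃ c, d = Sum.inr (c, true) := by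
    intro d
    constructor
    · intro hd
      have hZ := h1 d hd
      rw [h3 d hZ, hw4 d hZ, hZface d hZ] at hd
      exact hd
    · rintro ⟨c, rfl⟩
      have hZ : Z x (Sum.inr (c, true) : Letter x F) := Z_inr x _
      rw [h3 _ hZ, hw4 _ hZ, hZface _ hZ]
      exact ⟨c, rfl⟩
  obtain ⟨cs, hcs⟩ := exists_list_of_forall
    (fun c : Punct x F => (Sum.inr (c, true) : Letter x F)) w' (fun d hd => (hw' d).1 hd)
  have hcsnd : cs.Nodup := by
    rw [← hcs] at h2
    exact h2.of_map
  have hcsall : ∀ c, c ∈ cs := by
    intro c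
    have h7 : (Sum.inr (c, true) : Letter x F) ∈ w' := (hw' _).2 ⟨c, rfl⟩
    rw [← hcs, List.mem_map] at h7
    obtain ⟨c', hc', he⟩ := h7
    simp only [Sum.inr.injEq, Prod.mk.injEq, and_true] at he
    rwa [← he]
  have hz : ∀ c : Punct x F, (τ (rep x c))⁻¹ * x c.1 ^ period (x c.1) (τ (rep x c) • o) *
      τ (rep x c) = zval x τ c := by
    intro c
    rw [hτ]
    rfl
  have hzv : ∀ c : Punct x F, hv x τ (Sum.inr (c, true)) = zval x τ c := fun c => rfl
  refine ⟨H, fun c => τ (rep x c), cs, hcsnd, hcsall, fun c => ?_, ?_, ?_, ?_⟩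
  · rw [hτ]
    exact Quotient.out_eq _
  · simp only [hz]
    rw [← h4, ← hcs]
    unfold val
    rw [List.map_map]
    rfl
  · simp only [hz]
    have hK : ∀ K : Subgroup Γ, (entries H ⊆ K ∧ ∀ d ∈ w', hv x τ d ∈ K) ↔
        ∀ d : Dart m F, hval x τ d ∈ K := by
      intro K
      rw [h6 K]
      have he : entries ([] : List (Γ × Γ)) = ∅ := by simp [entries]
      rw [he]
      simp only [Set.empty_subset, true_and]
      rw [hw5 K]
      constructor
      · intro hKK d
        by_cases hd : d ∈ T
        · rw [hT.h_one d hd]; exact K.one_mem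
        · obtain ⟨j, hj⟩ := exists_face x d
          exact hKK j (Finset.mem_univ _) (Sum.inl d) (List.mem_filter.2 ⟨hj, by simpa using hd⟩)
      · intro hKK i _ d hd
        have hd' := (List.mem_filter.1 hd).1
        rcases d with d | ⟨c, b⟩
        · exact hKK d
        · rcases i with f | c'
          · obtain ⟨j, hj⟩ := (mem_white x).1 hd'
            exact absurd hj (by simp)
          · rcases (mem_black x).1 hd' with ⟨j, hj⟩ | hj
            · exact absurd hj (by simp)
            · rw [hj]
              -- the relation of the black face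
              have hbl := val_black x τ c'
              have hsplit : black x c' = (List.ofFn fun k : Fin (per x c') =>
                (Sum.inl (c'.1, (x c'.1) ^ ((k : ℕ) + 1) • rep x c', false) : Letter x F)) ++
                  [Sum.inr (c', true)] := rfl
              rw [hsplit, val_append, val_cons, val_nil, mul_one] at hbl
              rw [eq_inv_of_mul_eq_one_right hbl]
              refine K.inv_mem (val_mem _ _ _ fun y hy => ?_)
              rw [List.mem_ofFn] at hy
              obtain ⟨k, rfl⟩ := hy
              exact hKK (c'.1, (x c'.1) ^ ((k : ℕ) + 1) • rep x c', false)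
    have hKS : ∀ K : Subgroup Γ, (entries H ⊆ K ∧ ∀ d ∈ w', hv x τ d ∈ K) ↔
        (entries H ∪ Set.range fun c => zval x τ c) ⊆ (K : Set Γ) := by
      intro K
      rw [Set.union_subset_iff]
      refine and_congr Iff.rfl ⟨?_, ?_⟩
      · rintro h7 _ ⟨c, rfl⟩
        exact h7 (Sum.inr (c, true)) ((hw' _).2 ⟨c, rfl⟩)
      · intro h7 d hd
        obtain ⟨c, rfl⟩ := (hw' d).1 hd
        exact h7 ⟨c, rfl⟩
    apply le_antisymm
    · refine stabilizer_le x hgen hT.τ_o _ ?_
      rw [← hK, hKS]
      exact Subgroup.subset_closure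
    · rw [Subgroup.closure_le, ← hKS, hK]
      exact hval_mem_stabilizer x hτ
  · -- the count
    have hcsl : cs.length = Fintype.card (Punct x F) := by
      rw [← List.toFinset_card_of_nodup hcsnd, ← Finset.card_univ]
      congr 1
      ext c
      simp [hcsall c]
    have hw'l : w'.length = cs.length := by rw [← hcs, List.length_map]
    have hsum : ∑ i ∈ (Finset.univ : Finset (F ⊕ Punct x F)),
        ((face x i).filter fun d => ¬ TT x T d).length =
        (Fintype.card (Dart m F) - T.card) + Fintype.card (Punct x F) := by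
      have e1 : ∀ i : F ⊕ Punct x F, ((face x i).filter fun d => ¬ TT x T d).length =
          ((face x i).filter fun d => ¬ TT x T d).toFinset.card := fun i =>
        (List.toFinset_card_of_nodup ((face_nodup x i).filter _)).symm
      rw [Finset.sum_congr rfl fun i _ => e1 i, ← Finset.card_biUnion]
      · have e2 : (Finset.univ : Finset (F ⊕ Punct x F)).biUnion
            (fun i => ((face x i).filter fun d => ¬ TT x T d).toFinset) =
            (Finset.univ \ T).disjSum ((Finset.univ : Finset (Punct x F)) ×ˢ {true}) := by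
          ext d
          rw [Finset.mem_biUnion, Finset.mem_disjSum]
          constructor
          · rintro ⟨i, -, hi⟩
            rw [List.mem_toFinset, List.mem_filter] at hi
            rcases d with d | ⟨c, b⟩
            · left
              refine ⟨d, ?_, rfl⟩
              simpa using hi.2
            · right
              have hZ : Z x (Sum.inr (c, b) : Letter x F) := Z_inr x _
              obtain ⟨c', hc'⟩ := (hZface _ hZ).1 ⟨i, Finset.mem_univ _, List.mem_filter.2 hi⟩
              refine ⟨(c, b), ?_, rfl⟩
              simp only [Sum.inr.injEq, Prod.mk.injEq] at hc'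
              simp [hc'.2]
          · rintro (⟨d, hd, rfl⟩ | ⟨⟨c, b⟩, hd, rfl⟩)
            · obtain ⟨j, hj⟩ := exists_face x d
              refine ⟨j, Finset.mem_univ _, ?_⟩
              rw [List.mem_toFinset, List.mem_filter]
              exact ⟨hj, by simpa using hd⟩
            · have hb' : b = true := by simpa using hd
              subst hb'
              obtain ⟨i, hi, hi'⟩ := (hZface _ (Z_inr x (c, true))).2 ⟨c, rfl⟩
              exact ⟨i, hi, List.mem_toFinset.2 hi'⟩
        rw [e2, Finset.card_disjSum, Finset.card_product, Finset.card_singleton, mul_one,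
          Finset.card_univ, Finset.card_sdiff_of_subset (Finset.subset_univ T), Finset.card_univ]
      · intro i _ j _ hij
        rw [Function.onFun, Finset.disjoint_left]
        intro d hd hd'
        rw [List.mem_toFinset, List.mem_filter] at hd hd'
        exact hij (face_disj x i j d hd.1 hd'.1)
    rw [hsum] at hw3
    have hD : Fintype.card (Dart m F) = 2 * ((m + 1) * Fintype.card F) := by
      rw [Fintype.card_prod, Fintype.card_prod, Fintype.card_fin, Fintype.card_bool]
      ring
    have hTc := hT.card
    have hTle : T.card ≤ Fintype.card (Dart m F) := by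
      rw [← Finset.card_univ]
      exact Finset.card_le_card (Finset.subset_univ T)
    rw [Finset.card_univ] at hTc
    rw [hD] at hw3 hTle
    rw [Nat.card_eq_fintype_card]
    simp only [List.length_nil, mul_zero, add_zero] at h5
    rw [hw'l, hcsl] at h5
    rw [hcsl]
    have hpos : 0 < Fintype.card F := Fintype.card_pos_iff.2 ⟨o⟩
    generalize (m + 1) * Fintype.card F = N at *
    omega

end

/-- **Generators and relation for the stabiliser** of a point under a finite transitive action of a group
generated by `r` elements with product `1`, with the count of the genus. -/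
theorem exists_generators {r : ℕ} {Γ : Type u} [Group Γ] (x : Fin r → Γ) {F : Type v}
    [MulAction Γ F] (hx : (List.ofFn x).prod = 1) (hgen : Subgroup.closure (Set.range x) = ⊤)
    [Finite F] [IsPretransitive Γ F] (o : F) :
    ∃ (H : List (Γ × Γ)) (u : Punct x F → Γ) (cs : List (Punct x F)),
      cs.Nodup ∧ (∀ c, c ∈ cs) ∧
      (∀ c, (Quotient.mk _ (u c • o) : orbitRel.Quotient (Subgroup.zpowers (x c.1)) F) = c.2) ∧
      commProd H *
        (cs.map fun c => (u c)⁻¹ * x c.1 ^ period (x c.1) (u c • o) * u c).prod = 1 ∧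
      stabilizer Γ o = Subgroup.closure (entries H ∪
        Set.range fun c => (u c)⁻¹ * x c.1 ^ period (x c.1) (u c • o) * u c) ∧
      2 * H.length + 2 * Nat.card F + cs.length = r * Nat.card F + 2 := by
  rcases r with _ | m
  · have h1 : ∀ γ : Γ, γ = 1 := by
      intro γ
      have h2 : γ ∈ Subgroup.closure (Set.range x) := by rw [hgen]; trivial
      rw [Set.range_eq_empty x, Subgroup.closure_empty, Subgroup.mem_bot] at h2
      exact h2
    have h2 : ∀ f : F, f = o := by
      intro f
      obtain ⟨γ, hγ⟩ := MulAction.exists_smul_eq Γ o f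
      rw [← hγ, h1 γ, one_smul]
    have h3 : Nat.card F = 1 := by
      rw [Nat.card_eq_one_iff_unique]
      exact ⟨⟨fun a b => by rw [h2 a, h2 b]⟩, ⟨o⟩⟩
    refine ⟨[], fun c => c.1.elim0, [], by simp, fun c => c.1.elim0, fun c => c.1.elim0,
      by simp [commProd], ?_, by simp [h3]⟩
    ext γ
    rw [h1 γ]
    exact ⟨fun _ => one_mem _, fun _ => one_mem _⟩
  · exact exists_generators_succ x hx hgen o

/-- variant of `exists_generators` with functions instead of lists -/
theorem exists_generators' {r : ℕ} {Γ : Type u} [Group Γ] (x : Fin r → Γ) {F : Type v}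
    [MulAction Γ F] (hx : (List.ofFn x).prod = 1) (hgen : Subgroup.closure (Set.range x) = ⊤)
    [Finite F] [IsPretransitive Γ F] (o : F) :
    ∃ (g n : ℕ) (s t : Fin g → Γ) (u : Fin n → Γ) (e : Fin n ≃ Punct x F),
      (∀ k, (Quotient.mk _ (u k • o) : orbitRel.Quotient (Subgroup.zpowers (x (e k).1)) F) =
        (e k).2) ∧
      (List.ofFn fun j => s j * t j * (s j)⁻¹ * (t j)⁻¹).prod * (List.ofFn fun k =>
        (u k)⁻¹ * x (e k).1 ^ period (x (e k).1) (u k • o) * u k).prod = 1 ∧
      stabilizer Γ o = Subgroup.closure (Set.range s ∪ Set.range t ∪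
        Set.range fun k => (u k)⁻¹ * x (e k).1 ^ period (x (e k).1) (u k • o) * u k) ∧
      2 * g + 2 * Nat.card F + n = r * Nat.card F + 2 := by
  classical
  obtain ⟨H, u, cs, h1, h2, h3, h4, h5, h6⟩ := exists_generators x hx hgen o
  let e : Fin cs.length ≃ Punct x F := Equiv.ofBijective cs.get
    ⟨List.nodup_iff_injective_get.1 h1, fun c => by
      obtain ⟨k, hk⟩ := List.mem_iff_get.1 (h2 c)
      exact ⟨k, hk⟩⟩
  have he : ∀ k, e k = cs.get k := fun k => rfl
  refine ⟨H.length, cs.length, fun j => (H.get j).1, fun j => (H.get j).2, fun k => u (e k), e,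
    fun k => h3 (e k), ?_, ?_, h6⟩
  · rw [← h4]
    congr 1
    · unfold commProd
      congr 1
      conv_rhs => rw [← List.ofFn_get H, List.map_ofFn]
      rfl
    · congr 1
      conv_rhs => rw [← List.ofFn_get cs, List.map_ofFn]
      rfl
  · rw [h5]
    congr 1
    ext γ
    simp only [Set.mem_union, entries, Set.mem_ofPred_eq, Set.mem_range]
    refine or_congr ?_ ?_
    · constructor
      · rintro ⟨a, ha, h | h⟩
        · obtain ⟨j, rfl⟩ := List.mem_iff_get.1 ha
          exact Or.inl ⟨j, h.symm⟩
        · obtain ⟨j, rfl⟩ := List.mem_iff_get.1 ha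
          exact Or.inr ⟨j, h.symm⟩
      · rintro (⟨j, rfl⟩ | ⟨j, rfl⟩)
        · exact ⟨_, H.get_mem j, Or.inl rfl⟩
        · exact ⟨_, H.get_mem j, Or.inr rfl⟩
    · constructor
      · rintro ⟨c, rfl⟩
        exact ⟨e.symm c, by simp⟩
      · rintro ⟨k, rfl⟩
        exact ⟨e k, rfl⟩

end Groth.Agent.Pi1.H568
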