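import Groth.Agent.Pi1.H568.Word

/-!
# Extraction of handles: normal form of a word with one vertex
-/

set_option autoImplicit false

universe u v

namespace Groth.Agent.Pi1.H568.Handle

open Groth.Agent.Pi1.H568.Word

variable {D : Type u} {bar : D → D} {Z : D → Prop}

lemma isSys_singleton_iff {w : List D} : IsSys bar Z [w] ↔
    w.Nodup ∧ (∀ x ∈ w, ¬ Z x → bar x ∈ w) ∧
      (∀ s : D → Bool, Closed bar Z s w → ∀ x ∈ w, ∀ y ∈ w, ¬ Z x → ¬ Z y → s x = s y) := by
  constructor
  · intro h
    refine ⟨by simpa using h.nodup, by simpa using h.mem, fun s hs => ?_⟩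
    simpa using h.one s (by simpa using hs)
  · rintro ⟨h1, h2, h3⟩
    refine ⟨by simpa using h1, by simpa using h2, fun s hs => ?_⟩
    simpa using h3 s (by simpa using hs)

lemma isSys_rotate {w₁ w₂ : List D} (h : IsSys bar Z [w₁ ++ w₂]) : IsSys bar Z [w₂ ++ w₁] := by
  rw [isSys_singleton_iff] at h ⊢
  obtain ⟨h1, h2, h3⟩ := h
  refine ⟨List.nodup_append_comm.1 h1, fun x hx hZ => ?_, fun s hs x hx y hy => ?_⟩
  · have := h2 x (by simpa [or_comm] using hx) hZ
    simpa [or_comm] using this
  · exact h3 s (closed_append_comm.1 hs) x (by simpa [or_comm] using hx) y (by simpa [or_comm] using hy)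

/-- The word obtained by extraction of a handle has one vertex. -/
theorem isSys_extract (hb : IsBar bar Z) {a b : D} {P Q R S : List D} (ha : ¬ Z a) (hbZ : ¬ Z b)
    (hs : IsSys bar Z [a :: P ++ b :: Q ++ bar a :: R ++ bar b :: S]) :
    IsSys bar Z [P ++ S ++ R ++ Q] := by
  classical
  rw [isSys_singleton_iff] at hs ⊢
  obtain ⟨h1, h2, h3⟩ := hs
  have hperm : (a :: P ++ b :: Q ++ bar a :: R ++ bar b :: S).Perm
      (a :: bar a :: b :: bar b :: (P ++ S ++ R ++ Q)) := by
    rw [List.perm_iff_count]
    intro x
    simp only [List.cons_append, List.count_cons, List.count_append]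
    omega
  have h1' := hperm.nodup_iff.1 h1
  have hmem : ∀ x, x ∈ a :: P ++ b :: Q ++ bar a :: R ++ bar b :: S ↔
      (x = a ∨ x = bar a ∨ x = b ∨ x = bar b ∨ x ∈ P ++ S ++ R ++ Q) := by
    intro x
    rw [hperm.mem_iff]
    simp only [List.mem_cons]
  simp only [List.nodup_cons, List.mem_cons, not_or] at h1'
  obtain ⟨⟨hn1, hn2, hn3, hn4⟩, ⟨hn5, hn6, hn7⟩, ⟨hn8, hn9⟩, hn10, hnd⟩ := h1'
  have hba : ¬ Z (bar a) := fun h => ha ((hb.Z_iff a).1 h)
  have hbb : ¬ Z (bar b) := fun h => hbZ ((hb.Z_iff b).1 h)
  refine ⟨hnd, fun x hx hxZ => ?_, fun s hsc x hx y hy hxZ hyZ => ?_⟩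
  · have h4 := h2 x ((hmem x).2 (by tauto)) hxZ
    rcases (hmem _).1 h4 with h | h | h | h | h
    · exfalso
      have : x = bar a := by rw [← h, hb.invol]
      exact hn7 (this ▸ hx)
    · exfalso
      have : x = a := by rw [← hb.invol x, h, hb.invol]
      exact hn4 (this ▸ hx)
    · exfalso
      have : x = bar b := by rw [← h, hb.invol]
      exact hn10 (this ▸ hx)
    · exfalso
      have : x = b := by rw [← hb.invol x, h, hb.invol]
      exact hn9 (this ▸ hx)
    · exact h
  · -- extend the labelling
    obtain ⟨p, hp⟩ := hsc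
    rw [List.append_assoc, List.append_assoc, isPath_append] at hp
    obtain ⟨m₁, hP, hp⟩ := hp
    rw [isPath_append] at hp
    obtain ⟨m₂, hS, hp⟩ := hp
    rw [isPath_append] at hp
    obtain ⟨m₃, hR, hQ⟩ := hp
    let s' : D → Bool := fun z => if z = a then m₂ else if z = bar a then p else
      if z = b then m₁ else if z = bar b then m₃ else s z
    have hs'a : s' a = m₂ := by simp [s']
    have hs'a' : s' (bar a) = p := by simp [s', hb.ne a]
    have hs'b : s' b = m₁ := by
      have e1 : b ≠ a := fun h => hn2 h.symm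
      have e2 : b ≠ bar a := fun h => hn5 h.symm
      simp [s', e1, e2]
    have hs'b' : s' (bar b) = m₃ := by
      have e1 : bar b ≠ a := fun h => hn3 h.symm
      have e2 : bar b ≠ bar a := fun h => hn6 h.symm
      simp [s', e1, e2, hb.ne b]
    have hoff : ∀ z ∈ P ++ S ++ R ++ Q, s' z = s z := by
      intro z hz
      have e1 : z ≠ a := fun h => hn4 (h ▸ hz)
      have e2 : z ≠ bar a := fun h => hn7 (h ▸ hz)
      have e3 : z ≠ b := fun h => hn9 (h ▸ hz)
      have e4 : z ≠ bar b := fun h => hn10 (h ▸ hz)
      simp [s', e1, e2, e3, e4]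
    have hoff' : ∀ z ∈ P ++ S ++ R ++ Q, ¬ Z z → s' (bar z) = s (bar z) := by
      intro z hz hzZ
      refine hoff _ ?_
      have h4 := h2 z ((hmem z).2 (by tauto)) hzZ
      rcases (hmem _).1 h4 with h | h | h | h | h
      · exfalso
        have : z = bar a := by rw [← h, hb.invol]
        exact hn7 (this ▸ hz)
      · exfalso
        have : z = a := by rw [← hb.invol z, h, hb.invol]
        exact hn4 (this ▸ hz)
      · exfalso
        have : z = bar b := by rw [← h, hb.invol]
        exact hn10 (this ▸ hz)
      · exfalso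
        have : z = b := by rw [← hb.invol z, h, hb.invol]
        exact hn9 (this ▸ hz)
      · exact h
    have hcongr : ∀ {p' q' : Bool} {l : List D}, (∀ z ∈ l, z ∈ P ++ S ++ R ++ Q) →
        IsPath bar Z s p' l q' → IsPath bar Z s' p' l q' := by
      intro p' q' l hl hp'
      exact isPath_congr (fun z hz hzZ => ⟨(hoff z (hl z hz)).symm, (hoff' z (hl z hz) hzZ).symm⟩) hp'
    have hclosed : Closed bar Z s' (a :: P ++ b :: Q ++ bar a :: R ++ bar b :: S) := by
      refine ⟨m₂, ?_⟩
      rw [List.append_assoc, List.append_assoc, List.cons_append, isPath_cons ha, hs'a, hs'a',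
        isPath_append]
      refine ⟨rfl, m₁, hcongr (fun z hz => by simp [hz]) hP, ?_⟩
      rw [List.cons_append, isPath_cons hbZ, hs'b, hs'b', isPath_append]
      refine ⟨rfl, p, hcongr (fun z hz => by simp [hz]) hQ, ?_⟩
      rw [List.cons_append, isPath_cons hba, hs'a', hb.invol, hs'a, isPath_append]
      refine ⟨rfl, m₃, hcongr (fun z hz => by simp [hz]) hR, ?_⟩
      rw [isPath_cons hbb, hs'b', hb.invol, hs'b]
      exact ⟨rfl, hcongr (fun z hz => by simp [hz]) hS⟩
    have h4 := h3 s' hclosed x ((hmem x).2 (by tauto)) y ((hmem y).2 (by tauto)) hxZ hyZ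
    rwa [hoff x hx, hoff y hy] at h4

/-- **Normal form.** A relation given by a word with one vertex, in which the letters other than the
puncture letters occur together with their inverses, is equivalent to a product of commutators times
the product of the puncture letters in some order. -/
theorem normal_form (hb : IsBar bar Z) {G : Type v} [Group G] (h : D → G)
    (hh : ∀ x, h (bar x) = (h x)⁻¹) (n : ℕ) :
    ∀ (w : List D) (H : List (G × G)), w.length ≤ n → IsSys bar Z [w] →
      commProd H * val h w = 1 →
      ∃ (H' : List (G × G)) (w' : List D),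
        (∀ x ∈ w', Z x) ∧ w'.Nodup ∧ (∀ x, Z x → (x ∈ w' ↔ x ∈ w)) ∧
        commProd H' * val h w' = 1 ∧
        w.length + 4 * H.length = w'.length + 4 * H'.length ∧
        ∀ K : Subgroup G, (entries H' ⊆ K ∧ ∀ x ∈ w', h x ∈ K) ↔ (entries H ⊆ K ∧ ∀ x ∈ w, h x ∈ K) := by
  classical
  induction n with
  | zero =>
    intro w H hw hs hrel
    have : w = [] := List.eq_nil_of_length_eq_zero (Nat.le_zero.1 hw)
    subst this
    exact ⟨H, [], by simp, by simp, by simp, hrel, rfl, fun K => Iff.rfl⟩
  | succ n ih =>
    intro w H hw hs hrel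
    by_cases hZ : ∀ x ∈ w, Z x
    · exact ⟨H, w, hZ, by simpa using hs.nodup, fun _ _ => Iff.rfl, hrel, rfl, fun K => Iff.rfl⟩
    · push Not at hZ
      obtain ⟨a, haw, haZ⟩ := hZ
      obtain ⟨w₁, w₂, rfl⟩ := List.append_of_mem haw
      -- rotate
      have hs1 : IsSys bar Z [(a :: w₂) ++ w₁] := isSys_rotate hs
      have hab : bar a ∈ (a :: w₂) ++ w₁ := (isSys_singleton_iff.1 hs1).2.1 a (by simp) haZ
      have hab' : bar a ∈ w₂ ++ w₁ := by
        rw [List.cons_append, List.mem_cons] at hab
        exact hab.resolve_left (hb.ne a)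
      obtain ⟨X, Y, hXY⟩ := List.append_of_mem hab'
      have hs2 : IsSys bar Z [a :: X ++ bar a :: Y] := by
        rw [List.cons_append, hXY] at hs1
        exact hs1
      obtain ⟨b, hbX, hbZ, hbY⟩ := exists_crossing hb haZ hs2
      obtain ⟨P, Q, rfl⟩ := List.append_of_mem hbX
      obtain ⟨R, S, rfl⟩ := List.append_of_mem hbY
      have hs3 : IsSys bar Z [a :: P ++ b :: Q ++ bar a :: R ++ bar b :: S] := by
        have e : a :: P ++ b :: Q ++ bar a :: R ++ bar b :: S =
            a :: (P ++ b :: Q) ++ bar a :: (R ++ bar b :: S) := by simp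
        rw [e]; exact hs2
      have hs4 := isSys_extract hb haZ hbZ hs3
      -- the values
      have hlen : (w₁ ++ a :: w₂).length = (P ++ S ++ R ++ Q).length + 4 := by
        have := congrArg List.length hXY
        simp only [List.length_append, List.length_cons] at this ⊢
        omega
      -- value of the rotated word
      have hval : val h (w₂ ++ w₁) = val h P * h b * val h Q * (h a)⁻¹ * val h R * (h b)⁻¹ * val h S := by
        rw [hXY]
        simp [hh, mul_assoc]
      let g₁ : G := val h w₁
      let c : G := (val h R * val h Q)⁻¹ * h a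
      let b' : G := val h P * h b * val h Q
      let H₁ : List (G × G) := conjL ((val h R * val h Q)⁻¹ * g₁⁻¹) H ++ [(c, b')]
      have hrel1 : commProd H₁ * val h (P ++ S ++ R ++ Q) = 1 := by
        have e1 : commProd H₁ = ((val h R * val h Q)⁻¹ * g₁⁻¹) * commProd H *
            ((val h R * val h Q)⁻¹ * g₁⁻¹)⁻¹ * (c * b' * c⁻¹ * b'⁻¹) := by
          have : commProd H₁ = commProd (conjL ((val h R * val h Q)⁻¹ * g₁⁻¹) H) *
              (c * b' * c⁻¹ * b'⁻¹) := by simp [commProd, H₁]
          rw [this, commProd_conjL]
        have e2 : commProd H = (g₁ * h a * val h w₂)⁻¹ := by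
          rw [eq_inv_iff_mul_eq_one]
          have := hrel
          simp only [val_append, val_cons, ← mul_assoc] at this
          simpa only [g₁, ← mul_assoc] using this
        have e3 : val h w₂ * g₁ =
            val h P * h b * val h Q * (h a)⁻¹ * val h R * (h b)⁻¹ * val h S := by
          rw [← hval, val_append]
        have e4 : val h w₂ = val h P * h b * val h Q * (h a)⁻¹ * val h R * (h b)⁻¹ * val h S * g₁⁻¹ := by
          rw [← e3]; group
        rw [e1, e2, e4]
        simp only [c, b', val_append]
        group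
      have hrec := ih (P ++ S ++ R ++ Q) H₁ (by omega) hs4 hrel1
      obtain ⟨H', w', h1, h2, h3, h4, h5, h6⟩ := hrec
      have hperm : (a :: bar a :: b :: bar b :: (P ++ S ++ R ++ Q)).Perm (w₁ ++ a :: w₂) := by
        rw [List.perm_iff_count]
        intro x
        have := congrArg (List.count x) hXY
        simp only [List.count_cons, List.count_append] at this ⊢
        omega
      refine ⟨H', w', h1, h2, fun x hx => ?_, h4, ?_, fun K => ?_⟩
      · rw [h3 x hx, ← hperm.mem_iff]
        simp only [List.mem_cons]
        have e1 : x ≠ a := fun e => haZ (e ▸ hx)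
        have e2 : x ≠ bar a := fun e => haZ ((hb.Z_iff a).1 (e ▸ hx))
        have e3 : x ≠ b := fun e => hbZ (e ▸ hx)
        have e4 : x ≠ bar b := fun e => hbZ ((hb.Z_iff b).1 (e ▸ hx))
        simp [e1, e2, e3, e4]
      · have : H₁.length = H.length + 1 := by simp [H₁, conjL]
        rw [← h5, this, hlen]
        omega
      · rw [h6 K]
        have hentries : entries H₁ = entries (conjL ((val h R * val h Q)⁻¹ * g₁⁻¹) H) ∪ {c, b'} := by
          ext x
          simp only [entries, H₁, List.mem_append, List.mem_singleton, Set.mem_ofPred_eq,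
            Set.mem_union, Set.mem_insert_iff, Set.mem_singleton_iff]
          constructor
          · rintro ⟨y, hy | rfl, hx⟩
            · exact Or.inl ⟨y, hy, hx⟩
            · exact Or.inr hx
          · rintro (⟨y, hy, hx⟩ | hx)
            · exact ⟨y, Or.inl hy, hx⟩
            · exact ⟨(c, b'), Or.inr rfl, hx⟩
        constructor
        · rintro ⟨hH, hl⟩
          rw [hentries, Set.union_subset_iff] at hH
          have hPK := val_mem h P K (fun x hx => hl x (by simp [hx]))
          have hQK := val_mem h Q K (fun x hx => hl x (by simp [hx]))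
          have hRK := val_mem h R K (fun x hx => hl x (by simp [hx]))
          have hcK : c ∈ K := hH.2 (by simp)
          have hbK : b' ∈ K := hH.2 (by simp)
          have haK : h a ∈ K := by
            have : h a = val h R * val h Q * c := by simp only [c]; group
            rw [this]
            exact K.mul_mem (K.mul_mem hRK hQK) hcK
          have hbK' : h b ∈ K := by
            have : h b = (val h P)⁻¹ * b' * (val h Q)⁻¹ := by simp only [b']; group
            rw [this]
            exact K.mul_mem (K.mul_mem (K.inv_mem hPK) hbK) (K.inv_mem hQK)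
          have hall : ∀ x ∈ w₁ ++ a :: w₂, h x ∈ K := by
            intro x hx
            rw [← hperm.mem_iff] at hx
            simp only [List.mem_cons] at hx
            rcases hx with rfl | rfl | rfl | rfl | hx
            · exact haK
            · rw [hh]; exact K.inv_mem haK
            · exact hbK'
            · rw [hh]; exact K.inv_mem hbK'
            · exact hl x hx
          refine ⟨?_, hall⟩
          have hgK : (val h R * val h Q)⁻¹ * g₁⁻¹ ∈ K :=
            K.mul_mem (K.inv_mem (K.mul_mem hRK hQK))
              (K.inv_mem (val_mem h w₁ K (fun x hx => hall x (by simp [hx]))))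
          exact entries_subset_of_conjL _ H K hgK hH.1
        · rintro ⟨hH, hl⟩
          have hl' : ∀ x ∈ a :: bar a :: b :: bar b :: (P ++ S ++ R ++ Q), h x ∈ K :=
            fun x hx => hl x (hperm.mem_iff.1 hx)
          have hPK := val_mem h P K (fun x hx => hl' x (by simp [hx]))
          have hQK := val_mem h Q K (fun x hx => hl' x (by simp [hx]))
          have hRK := val_mem h R K (fun x hx => hl' x (by simp [hx]))
          have haK : h a ∈ K := hl' a (by simp)
          have hbK : h b ∈ K := hl' b (by simp)
          have hgK : (val h R * val h Q)⁻¹ * g₁⁻¹ ∈ K :=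
            K.mul_mem (K.inv_mem (K.mul_mem hRK hQK))
              (K.inv_mem (val_mem h w₁ K (fun x hx => hl x (by simp [hx]))))
          refine ⟨?_, fun x hx => hl' x (by simp only [List.mem_cons]; tauto)⟩
          rw [hentries, Set.union_subset_iff]
          refine ⟨entries_conjL_subset _ H K hgK hH, ?_⟩
          rintro x (rfl | rfl)
          · exact K.mul_mem (K.inv_mem (K.mul_mem hRK hQK)) haK
          · exact K.mul_mem (K.mul_mem hPK hbK) hQK

end Groth.Agent.Pi1.H568.Handle
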