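import Groth.Agent.Pi1.H568.Handle
import Mathlib.Algebra.BigOperators.Group.Finset.Basic

/-!
# Merging the faces of a connected system of faces
-/

set_option autoImplicit false

universe u v w

namespace Groth.Agent.Pi1.H568.Merge

open Groth.Agent.Pi1.H568.Word Groth.Agent.Pi1.H568.Handle

variable {D : Type u} {bar : D → D} {Z : D → Prop} {ι : Type w}

/-- a connected system of faces with one vertex -/
structure Sys (bar : D → D) (Z : D → Prop) (S : Finset ι) (face : ι → List D) : Prop where
  nodup : ∀ i ∈ S, (face i).Nodup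
  disj : ∀ i ∈ S, ∀ j ∈ S, ∀ x, x ∈ face i → x ∈ face j → i = j
  mem : ∀ i ∈ S, ∀ x ∈ face i, ¬ Z x → ∃ j ∈ S, bar x ∈ face j
  conn : ∀ (s : D → Bool) (p : ι → Bool), (∀ i ∈ S, IsPath bar Z s (p i) (face i) (p i)) →
    ∃ c, (∀ i ∈ S, p i = c) ∧ ∀ i ∈ S, ∀ x ∈ face i, ¬ Z x → s x = c

lemma Sys.isSys {i : ι} {face : ι → List D} (h : Sys bar Z {i} face) : IsSys bar Z [face i] := by
  rw [isSys_singleton_iff]
  refine ⟨h.nodup i (by simp), fun x hx hZ => ?_, fun s hs x hx y hy hxZ hyZ => ?_⟩
  · simpa using h.mem i (by simp) x hx hZ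
  · obtain ⟨p, hp⟩ := hs
    obtain ⟨c, -, hc⟩ := h.conn s (fun _ => p) (by simpa using hp)
    rw [hc i (by simp) x hx hxZ, hc i (by simp) y hy hyZ]

/-- a face which is not the only one shares a letter with another one -/
lemma Sys.exists_share (hb : IsBar bar Z) {S : Finset ι} {face : ι → List D} (h : Sys bar Z S face)
    {i j : ι} (hi : i ∈ S) (hj : j ∈ S) (hij : j ≠ i) : ∃ x ∈ face i, ¬ Z x ∧ bar x ∉ face i := by
  classical
  by_contra hcon
  push Not at hcon
  obtain ⟨c, hc, -⟩ := h.conn (fun y => decide (y ∈ face i ∨ bar y ∈ face i))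
    (fun k => decide (k = i)) (by
      intro k hk
      by_cases hki : k = i
      · subst hki
        simp only [decide_true]
        refine isPath_const fun x hx hZ => ?_
        simp [hx, hcon x hx hZ]
      · simp only [hki, decide_false]
        refine isPath_const fun x hx hZ => ?_
        have h1 : x ∉ face i := fun hx' => hki (h.disj k hk i hi x hx hx')
        have h2 : bar x ∉ face i := by
          intro hx'
          have := hcon _ hx' (fun hz => hZ ((hb.Z_iff x).1 hz))
          rw [hb.invol] at this
          exact h1 this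
        simp [h1, h2, hb.invol])
  have h1 := hc i hi
  have h2 := hc j hj
  simp only [decide_true] at h1
  simp only [hij, decide_false] at h2
  rw [← h1] at h2
  exact Bool.false_ne_true h2

/-- one step of merging -/
theorem Sys.merge_step (hb : IsBar bar Z) [DecidableEq ι] {S : Finset ι} {face : ι → List D}
    (h : Sys bar Z S face) {i j : ι} (hi : i ∈ S) (hj : j ∈ S) (hij : i ≠ j) {x : D}
    (hxZ : ¬ Z x) {u₁ u₂ v₁ v₂ : List D} (hfi : face i = u₁ ++ x :: u₂)
    (hfj : face j = v₁ ++ bar x :: v₂) :
    Sys bar Z (S.erase j) (Function.update face i (u₂ ++ u₁ ++ v₂ ++ v₁)) := by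
  classical
  set new : List D := u₂ ++ u₁ ++ v₂ ++ v₁ with hnew
  have hxi : x ∈ face i := by simp [hfi]
  have hxj : bar x ∈ face j := by simp [hfj]
  have hiS' : i ∈ S.erase j := Finset.mem_erase.2 ⟨hij, hi⟩
  have hndi := h.nodup i hi
  have hndj := h.nodup j hj
  have hbxZ : ¬ Z (bar x) := fun hz => hxZ ((hb.Z_iff x).1 hz)
  -- membership in the new face
  have hmemnew : ∀ y, y ∈ new ↔ ((y ∈ face i ∨ y ∈ face j) ∧ y ≠ x ∧ y ≠ bar x) := by
    intro y
    have hnd1 : (x :: (u₁ ++ u₂)).Nodup := by
      have : (u₁ ++ x :: u₂).Perm (x :: (u₁ ++ u₂)) := List.perm_middle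
      rw [← this.nodup_iff, ← hfi]; exact hndi
    have hnd2 : (bar x :: (v₁ ++ v₂)).Nodup := by
      have : (v₁ ++ bar x :: v₂).Perm (bar x :: (v₁ ++ v₂)) := List.perm_middle
      rw [← this.nodup_iff, ← hfj]; exact hndj
    rw [List.nodup_cons, List.mem_append, not_or] at hnd1 hnd2
    have hxj' : x ∉ face j := fun hx => hij (h.disj i hi j hj x hxi hx)
    have hxi' : bar x ∉ face i := fun hx => hij (h.disj i hi j hj _ hx hxj)
    rw [hfi] at hxi'
    rw [hfj] at hxj'
    simp only [List.mem_append, List.mem_cons, not_or] at hxi' hxj'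
    rw [hfi, hfj]
    simp only [hnew, List.mem_append, List.mem_cons]
    constructor
    · rintro (((hy | hy) | hy) | hy)
      · exact ⟨by tauto, fun e => hnd1.1.2 (e ▸ hy), fun e => hxi'.2.2 (e ▸ hy)⟩
      · exact ⟨by tauto, fun e => hnd1.1.1 (e ▸ hy), fun e => hxi'.1 (e ▸ hy)⟩
      · exact ⟨by tauto, fun e => hxj'.2.2 (e ▸ hy), fun e => hnd2.1.2 (e ▸ hy)⟩
      · exact ⟨by tauto, fun e => hxj'.1 (e ▸ hy), fun e => hnd2.1.1 (e ▸ hy)⟩
    · rintro ⟨hy, h1, h2⟩
      tauto
  have hface' : ∀ k ∈ S.erase j, ∀ y, y ∈ Function.update face i new k →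
      y ∈ face k ∨ (k = i ∧ y ∈ face j) := by
    intro k hk y hy
    by_cases hki : k = i
    · subst hki
      rw [Function.update_self] at hy
      have := ((hmemnew y).1 hy).1
      tauto
    · rw [Function.update_of_ne hki] at hy
      exact Or.inl hy
  have hne : ∀ k ∈ S.erase j, ∀ y, y ∈ Function.update face i new k → y ≠ x ∧ y ≠ bar x := by
    intro k hk y hy
    by_cases hki : k = i
    · subst hki
      rw [Function.update_self] at hy
      exact ((hmemnew y).1 hy).2
    · rw [Function.update_of_ne hki] at hy
      have hkj : k ≠ j := (Finset.mem_erase.1 hk).1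
      have hkS := (Finset.mem_erase.1 hk).2
      exact ⟨fun e => hki (h.disj k hkS i hi x (e ▸ hy) hxi),
        fun e => hkj (h.disj k hkS j hj _ (e ▸ hy) hxj)⟩
  -- all letters except `x`, `bar x` are in the new system
  have hall : ∀ k ∈ S, ∀ y ∈ face k, y ≠ x → y ≠ bar x →
      ∃ k' ∈ S.erase j, y ∈ Function.update face i new k' := by
    intro k hk y hy h1 h2
    by_cases hki : k = i
    · subst hki
      exact ⟨k, hiS', by rw [Function.update_self]; exact (hmemnew y).2 ⟨Or.inl hy, h1, h2⟩⟩
    · by_cases hkj : k = j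
      · subst hkj
        exact ⟨i, hiS', by rw [Function.update_self]; exact (hmemnew y).2 ⟨Or.inr hy, h1, h2⟩⟩
      · exact ⟨k, Finset.mem_erase.2 ⟨hkj, hk⟩, by rw [Function.update_of_ne hki]; exact hy⟩
  have hbar : ∀ k ∈ S.erase j, ∀ y ∈ Function.update face i new k, ¬ Z y →
      ∃ k' ∈ S.erase j, bar y ∈ Function.update face i new k' := by
    intro k hk y hy hyZ
    obtain ⟨h1, h2⟩ := hne k hk y hy
    have h3 : bar y ≠ x := fun e => h2 (by rw [← e, hb.invol])
    have h4 : bar y ≠ bar x := fun e => h1 (by rw [← hb.invol y, e, hb.invol])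
    have h5 : ∃ k' ∈ S, bar y ∈ face k' := by
      rcases hface' k hk y hy with h5 | ⟨-, h5⟩
      · exact h.mem k (Finset.mem_erase.1 hk).2 y h5 hyZ
      · exact h.mem j hj y h5 hyZ
    obtain ⟨k', hk', hy'⟩ := h5
    exact hall k' hk' _ hy' h3 h4
  refine ⟨fun k hk => ?_, fun k hk k' hk' y hy hy' => ?_, hbar, fun s p hp => ?_⟩
  · by_cases hki : k = i
    · subst hki
      rw [Function.update_self]
      have hd : (face k ++ face j).Nodup := by
        rw [List.nodup_append]
        refine ⟨hndi, hndj, fun a ha b hb' e => ?_⟩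
        subst e
        exact hij (h.disj k hi j hj a ha hb')
      have hperm : (face k ++ face j).Perm (x :: bar x :: new) := by
        rw [List.perm_iff_count]
        intro y
        rw [hfi, hfj]
        simp only [hnew, List.count_append, List.count_cons]
        omega
      have := (hperm.nodup_iff.1 hd)
      rw [List.nodup_cons, List.nodup_cons] at this
      exact this.2.2
    · rw [Function.update_of_ne hki]
      exact h.nodup k (Finset.mem_erase.1 hk).2
  · have hkS := (Finset.mem_erase.1 hk).2
    have hkS' := (Finset.mem_erase.1 hk').2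
    have hkj := (Finset.mem_erase.1 hk).1
    have hkj' := (Finset.mem_erase.1 hk').1
    rcases hface' k hk y hy with h1 | ⟨h0, h1⟩
    · rcases hface' k' hk' y hy' with h2 | ⟨h0', h2⟩
      · exact h.disj k hkS k' hkS' y h1 h2
      · exact absurd (h.disj k hkS j hj y h1 h2) hkj
    · rcases hface' k' hk' y hy' with h2 | ⟨h0', h2⟩
      · exact absurd (h.disj k' hkS' j hj y h2 h1) hkj'
      · rw [h0, h0']
  · -- connectedness
    have hpi := hp i hiS'
    rw [Function.update_self, hnew, List.append_assoc, List.append_assoc, isPath_append] at hpi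
    obtain ⟨m₁, hu₂, hpi⟩ := hpi
    rw [isPath_append] at hpi
    obtain ⟨m₂, hu₁, hpi⟩ := hpi
    rw [isPath_append] at hpi
    obtain ⟨m₃, hv₂, hv₁⟩ := hpi
    let s' : D → Bool := fun z => if z = x then m₂ else if z = bar x then p i else s z
    have hs'x : s' x = m₂ := by simp [s']
    have hs'x' : s' (bar x) = p i := by simp [s', hb.ne x]
    have hcongr : ∀ {p' q' : Bool} {l : List D},
        (∀ z ∈ l, ∃ k ∈ S.erase j, z ∈ Function.update face i new k) →
        IsPath bar Z s p' l q' → IsPath bar Z s' p' l q' := by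
      intro p' q' l hl hp'
      refine isPath_congr (fun z hz hzZ => ?_) hp'
      obtain ⟨k, hk, hzk⟩ := hl z hz
      obtain ⟨k', hk', hzk'⟩ := hbar k hk z hzk hzZ
      obtain ⟨h1, h2⟩ := hne k hk z hzk
      obtain ⟨h3, h4⟩ := hne k' hk' _ hzk'
      simp [s', h1, h2, h3, h4]
    have hmn : ∀ z ∈ new, ∃ k ∈ S.erase j, z ∈ Function.update face i new k := fun z hz =>
      ⟨i, hiS', by rw [Function.update_self]; exact hz⟩
    obtain ⟨c, hc, hc'⟩ := h.conn s' (fun k => if k = i then m₁ else if k = j then m₃ else p k) (by
      intro k hk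
      by_cases hki : k = i
      · subst hki
        simp only [if_true]
        rw [hfi, isPath_append]
        refine ⟨m₂, hcongr (fun z hz => hmn z (by simp [hnew, hz])) hu₁, ?_⟩
        rw [isPath_cons hxZ, hs'x, hs'x']
        exact ⟨rfl, hcongr (fun z hz => hmn z (by simp [hnew, hz])) hu₂⟩
      · by_cases hkj : k = j
        · subst hkj
          simp only [hki, if_false, if_true]
          rw [hfj, isPath_append]
          refine ⟨p i, hcongr (fun z hz => hmn z (by simp [hnew, hz])) hv₁, ?_⟩
          rw [isPath_cons hbxZ, hs'x', hb.invol, hs'x]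
          exact ⟨rfl, hcongr (fun z hz => hmn z (by simp [hnew, hz])) hv₂⟩
        · simp only [hki, hkj, if_false]
          have hk' : k ∈ S.erase j := Finset.mem_erase.2 ⟨hkj, hk⟩
          have hpk := hp k hk'
          rw [Function.update_of_ne hki] at hpk
          exact hcongr (fun z hz => ⟨k, hk', by rw [Function.update_of_ne hki]; exact hz⟩) hpk)
    have hxc : p i = c := by
      have := hc' j hj (bar x) hxj hbxZ
      rwa [hs'x'] at this
    refine ⟨c, fun k hk => ?_, fun k hk y hy hyZ => ?_⟩
    · by_cases hki : k = i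
      · rw [hki]; exact hxc
      · have := hc k (Finset.mem_erase.1 hk).2
        simpa [hki, (Finset.mem_erase.1 hk).1] using this
    · obtain ⟨h1, h2⟩ := hne k hk y hy
      have hs'y : s' y = s y := by simp [s', h1, h2]
      rw [← hs'y]
      rcases hface' k hk y hy with h3 | ⟨-, h3⟩
      · exact hc' k (Finset.mem_erase.1 hk).2 y h3 hyZ
      · exact hc' j hj y h3 hyZ

/-- **Merging of faces.** -/
theorem merge (hb : IsBar bar Z) {G : Type v} [Group G] (h : D → G)
    (hh : ∀ x, h (bar x) = (h x)⁻¹) (n : ℕ) :
    ∀ (S : Finset ι) (face : ι → List D), S.card = n + 1 → Sys bar Z S face →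
      (∀ i ∈ S, val h (face i) = 1) →
      ∃ w : List D, IsSys bar Z [w] ∧ val h w = 1 ∧
        w.length + 2 * n = ∑ i ∈ S, (face i).length ∧
        (∀ x, Z x → (x ∈ w ↔ ∃ i ∈ S, x ∈ face i)) ∧
        ∀ K : Subgroup G, (∀ x ∈ w, h x ∈ K) ↔ (∀ i ∈ S, ∀ x ∈ face i, h x ∈ K) := by
  classical
  induction n with
  | zero =>
    intro S face hS hsys hrel
    obtain ⟨i, rfl⟩ := Finset.card_eq_one.1 hS
    exact ⟨face i, hsys.isSys, hrel i (by simp), by simp, by simp, by simp⟩
  | succ n ih =>
    intro S face hS hsys hrel
    obtain ⟨i, hi, j', hj', hij'⟩ := Finset.one_lt_card.1 (by omega : 1 < S.card)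
    obtain ⟨x, hx, hxZ, hxi⟩ := hsys.exists_share hb hi hj' hij'.symm
    obtain ⟨j, hj, hxj⟩ := hsys.mem i hi x hx hxZ
    have hij : i ≠ j := by
      rintro rfl
      exact hxi hxj
    obtain ⟨u₁, u₂, hfi⟩ := List.append_of_mem hx
    obtain ⟨v₁, v₂, hfj⟩ := List.append_of_mem hxj
    have hsys' := hsys.merge_step hb hi hj hij hxZ hfi hfj
    set new : List D := u₂ ++ u₁ ++ v₂ ++ v₁ with hnew
    have hiS' : i ∈ S.erase j := Finset.mem_erase.2 ⟨hij, hi⟩
    have hri := hrel i hi
    have hrj := hrel j hj
    rw [hfi, val_append, val_cons] at hri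
    rw [hfj, val_append, val_cons, hh] at hrj
    have hx1 : h x = (val h u₁)⁻¹ * (val h u₂)⁻¹ := by
      have : h x = (val h u₁)⁻¹ * (val h u₁ * (h x * val h u₂)) * (val h u₂)⁻¹ := by group
      rw [this, hri, mul_one]
    have hnewrel : val h new = 1 := by
      rw [hnew]
      simp only [val_append]
      rw [hx1] at hrj
      have e : val h u₂ * val h u₁ * val h v₂ * val h v₁ =
          (val h v₁)⁻¹ * (val h v₁ * (((val h u₁)⁻¹ * (val h u₂)⁻¹)⁻¹ * val h v₂)) * val h v₁ := by
        group
      rw [e, hrj]
      group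
    obtain ⟨w, h1, h2, h3, h4, h5⟩ := ih (S.erase j) (Function.update face i new)
      (by rw [Finset.card_erase_of_mem hj]; omega) hsys' (by
        intro k hk
        by_cases hki : k = i
        · subst hki
          rw [Function.update_self]; exact hnewrel
        · rw [Function.update_of_ne hki]
          exact hrel k (Finset.mem_erase.1 hk).2)
    refine ⟨w, h1, h2, ?_, fun y hyZ => ?_, fun K => ?_⟩
    · -- lengths
      have e1 : ∑ k ∈ S, (face k).length =
          ∑ k ∈ S.erase j, (face k).length + (face j).length := by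
        rw [Finset.sum_erase_add _ _ hj]
      have e2 : ∑ k ∈ S.erase j, (face k).length =
          ∑ k ∈ (S.erase j).erase i, (face k).length + (face i).length := by
        rw [Finset.sum_erase_add _ _ hiS']
      have e3 : ∑ k ∈ S.erase j, (Function.update face i new k).length =
          ∑ k ∈ (S.erase j).erase i, (face k).length + new.length := by
        rw [← Finset.sum_erase_add _ _ hiS', Function.update_self]
        congr 1
        refine Finset.sum_congr rfl fun k hk => ?_
        rw [Function.update_of_ne (Finset.mem_erase.1 hk).1]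
      rw [e3] at h3
      rw [e1, e2, hfi, hfj]
      simp only [hnew, List.length_append, List.length_cons] at h3 ⊢
      omega
    · rw [h4 y hyZ]
      constructor
      · rintro ⟨k, hk, hy⟩
        by_cases hki : k = i
        · subst hki
          rw [Function.update_self, hnew] at hy
          simp only [List.mem_append] at hy
          rcases hy with ((hy | hy) | hy) | hy
          · exact ⟨k, hi, by rw [hfi]; simp [hy]⟩
          · exact ⟨k, hi, by rw [hfi]; simp [hy]⟩
          · exact ⟨j, hj, by rw [hfj]; simp [hy]⟩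
          · exact ⟨j, hj, by rw [hfj]; simp [hy]⟩
        · rw [Function.update_of_ne hki] at hy
          exact ⟨k, (Finset.mem_erase.1 hk).2, hy⟩
      · rintro ⟨k, hk, hy⟩
        have hyx : y ≠ x := fun e => hxZ (e ▸ hyZ)
        have hyx' : y ≠ bar x := fun e => hxZ ((hb.Z_iff x).1 (e ▸ hyZ))
        by_cases hki : k = i
        · subst hki
          refine ⟨k, hiS', ?_⟩
          rw [Function.update_self, hnew]
          rw [hfi] at hy
          simp only [List.mem_append, List.mem_cons] at hy ⊢
          tauto
        · by_cases hkj : k = j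
          · subst hkj
            refine ⟨i, hiS', ?_⟩
            rw [Function.update_self, hnew]
            rw [hfj] at hy
            simp only [List.mem_append, List.mem_cons] at hy ⊢
            tauto
          · exact ⟨k, Finset.mem_erase.2 ⟨hkj, hk⟩, by rw [Function.update_of_ne hki]; exact hy⟩
    · rw [h5 K]
      constructor
      · intro hK
        have hKnew : ∀ y ∈ new, h y ∈ K := by
          have := hK i hiS'
          rwa [Function.update_self] at this
        have hxK : h x ∈ K := by
          rw [hx1]
          exact K.mul_mem (K.inv_mem (val_mem h u₁ K fun y hy => hKnew y (by simp [hnew, hy])))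
            (K.inv_mem (val_mem h u₂ K fun y hy => hKnew y (by simp [hnew, hy])))
        intro k hk y hy
        by_cases hki : k = i
        · subst hki
          rw [hfi, List.mem_append, List.mem_cons] at hy
          rcases hy with hy | rfl | hy
          · exact hKnew y (by simp [hnew, hy])
          · exact hxK
          · exact hKnew y (by simp [hnew, hy])
        · by_cases hkj : k = j
          · subst hkj
            rw [hfj, List.mem_append, List.mem_cons] at hy
            rcases hy with hy | rfl | hy
            · exact hKnew y (by simp [hnew, hy])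
            · rw [hh]; exact K.inv_mem hxK
            · exact hKnew y (by simp [hnew, hy])
          · have := hK k (Finset.mem_erase.2 ⟨hkj, hk⟩)
            rw [Function.update_of_ne hki] at this
            exact this y hy
      · intro hK k hk y hy
        by_cases hki : k = i
        · subst hki
          rw [Function.update_self, hnew] at hy
          simp only [List.mem_append] at hy
          rcases hy with ((hy | hy) | hy) | hy
          · exact hK k hi y (by rw [hfi]; simp [hy])
          · exact hK k hi y (by rw [hfi]; simp [hy])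
          · exact hK j hj y (by rw [hfj]; simp [hy])
          · exact hK j hj y (by rw [hfj]; simp [hy])
        · rw [Function.update_of_ne hki] at hy
          exact hK k (Finset.mem_erase.1 hk).2 y hy

end Groth.Agent.Pi1.H568.Merge
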