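import Groth.Agent.Pi1.H568.Final
import Groth.Agent.Pi1.H611.Universal

/-!
# Standard generators of the stabiliser of a point under a finite transitive action of a free group

`Γ` is free on `β : FreeGroupBasis (Fin k) Γ`; the generators `x : Fin (k + 1) → Γ` are the elements of
the basis together with the inverse of their product (the loop around infinity).
-/

set_option autoImplicit false

universe u v w

namespace Groth.Agent.Pi1.H568.Package

open MulAction Groth.Agent.Pi1.H568.Cover

variable {k : ℕ} {Γ : Type u} [Group Γ]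

/-- the generators of a free group together with the inverse of their product -/
def gens (y : Fin k → Γ) : Fin (k + 1) → Γ := Fin.snoc y (List.ofFn y).prod⁻¹

lemma gens_castSucc (y : Fin k → Γ) (i : Fin k) : gens y i.castSucc = y i := by
  simp [gens]

lemma gens_last (y : Fin k → Γ) : gens y (Fin.last k) = (List.ofFn y).prod⁻¹ := by
  simp [gens]

lemma prod_gens (y : Fin k → Γ) : (List.ofFn (gens y)).prod = 1 := by
  rw [List.ofFn_succ', List.concat_eq_append, List.prod_append, List.prod_singleton, gens_last]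
  simp only [gens_castSucc]
  exact mul_inv_cancel _

lemma closure_gens (y : Fin k → Γ) (hy : Subgroup.closure (Set.range y) = ⊤) :
    Subgroup.closure (Set.range (gens y)) = ⊤ := by
  rw [eq_top_iff, ← hy]
  refine Subgroup.closure_mono ?_
  rintro _ ⟨i, rfl⟩
  exact ⟨i.castSucc, gens_castSucc y i⟩

/-- lifting generators and relation to the stabiliser as a group -/
theorem exists_generators_sub {r : ℕ} (x : Fin r → Γ) {F : Type v}
    [MulAction Γ F] (hx : (List.ofFn x).prod = 1) (hgen : Subgroup.closure (Set.range x) = ⊤)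
    [Finite F] [IsPretransitive Γ F] (o : F) :
    ∃ (g n : ℕ) (s t : Fin g → stabilizer Γ o) (u : Fin n → Γ) (z : Fin n → stabilizer Γ o)
      (e : Fin n ≃ Punct x F),
      (∀ j, (Quotient.mk _ (u j • o) : orbitRel.Quotient (Subgroup.zpowers (x (e j).1)) F) =
        (e j).2) ∧
      (∀ j, (z j : Γ) = (u j)⁻¹ * x (e j).1 ^ period (x (e j).1) (u j • o) * u j) ∧
      (List.ofFn fun i => s i * t i * (s i)⁻¹ * (t i)⁻¹).prod * (List.ofFn z).prod = 1 ∧
      Subgroup.closure (Set.range s ∪ Set.range t ∪ Set.range z) = ⊤ ∧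
      2 * g + 2 * Nat.card F + n = r * Nat.card F + 2 := by
  obtain ⟨g, n, s, t, u, e, h1, h2, h3, h4⟩ := exists_generators' x hx hgen o
  have hs : ∀ i, s i ∈ stabilizer Γ o := fun i => by
    rw [h3]; exact Subgroup.subset_closure (Or.inl (Or.inl ⟨i, rfl⟩))
  have ht : ∀ i, t i ∈ stabilizer Γ o := fun i => by
    rw [h3]; exact Subgroup.subset_closure (Or.inl (Or.inr ⟨i, rfl⟩))
  have hz : ∀ j, (u j)⁻¹ * x (e j).1 ^ period (x (e j).1) (u j • o) * u j ∈ stabilizer Γ o :=
    fun j => by rw [h3]; exact Subgroup.subset_closure (Or.inr ⟨j, rfl⟩)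
  let s' : Fin g → stabilizer Γ o := fun i => ⟨s i, hs i⟩
  let t' : Fin g → stabilizer Γ o := fun i => ⟨t i, ht i⟩
  let z' : Fin n → stabilizer Γ o := fun j => ⟨_, hz j⟩
  refine ⟨g, n, s', t', u, z', e, h1, fun j => rfl, ?_, ?_, h4⟩
  · apply (stabilizer Γ o).subtype_injective
    rw [map_one, map_mul, Groth.Agent.Pi1.H611.Universal.map_prod_ofFn,
      Groth.Agent.Pi1.H611.Universal.map_prod_ofFn, ← h2]
    rfl
  · apply Subgroup.map_injective (stabilizer Γ o).subtype_injective
    rw [MonoidHom.map_closure, ← MonoidHom.range_eq_map, Subgroup.range_subtype,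
      Set.image_union, Set.image_union, ← Set.range_comp, ← Set.range_comp, ← Set.range_comp]
    exact h3.symm

/-- **The package.** Generators of the stabiliser of a point under a finite transitive action of a free
group, with the count which implies the universal property `H611.Universal.universal`. -/
theorem exists_package (β : FreeGroupBasis (Fin k) Γ) {F : Type v} [MulAction Γ F] [Finite F]
    [IsPretransitive Γ F] (o : F) :
    ∃ (g n : ℕ) (s t : Fin g → stabilizer Γ o) (u : Fin n → Γ) (z : Fin n → stabilizer Γ o)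
      (e : Fin n ≃ Punct (gens β) F),
      (∀ j, (Quotient.mk _ (u j • o) :
        orbitRel.Quotient (Subgroup.zpowers (gens β (e j).1)) F) = (e j).2) ∧
      (∀ j, (z j : Γ) =
        (u j)⁻¹ * gens β (e j).1 ^ period (gens β (e j).1) (u j • o) * u j) ∧
      n ≠ 0 ∧
      (List.ofFn fun i => s i * t i * (s i)⁻¹ * (t i)⁻¹).prod * (List.ofFn z).prod = 1 ∧
      Subgroup.closure (Set.range s ∪ Set.range t ∪ Set.range z) = ⊤ ∧
      2 * g + n + Nat.card F = Nat.card F * Nat.card (Fin k) + 2 := by
  have hβ : Subgroup.closure (Set.range (β : Fin k → Γ)) = ⊤ := by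
    have h1 := FreeGroup.closure_range_of (Fin k)
    have h2 := congrArg (Subgroup.map β.repr.symm.toMonoidHom) h1
    rw [MonoidHom.map_closure, ← Set.range_comp,
      Subgroup.map_top_of_surjective _ β.repr.symm.surjective] at h2
    rw [← h2]
    congr 1
  obtain ⟨g, n, s, t, u, z, e, h1, h2, h3, h4, h5⟩ :=
    exists_generators_sub (gens β) (prod_gens _) (closure_gens _ hβ) o
  refine ⟨g, n, s, t, u, z, e, h1, h2, ?_, h3, h4, ?_⟩
  · rintro rfl
    exact (e.symm ⟨0, Quotient.mk _ o⟩).elim0
  · rw [Nat.card_fin]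
    rw [add_mul, one_mul, mul_comm k] at h5
    omega

end Groth.Agent.Pi1.H568.Package
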