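import Mathlib.Data.List.Nodup
import Mathlib.Data.List.Perm.Basic
import Mathlib.Algebra.Group.Subgroup.Lattice
import Mathlib.Algebra.Group.Subgroup.Finite
import Mathlib.Algebra.Group.Commutator
import Mathlib.Algebra.BigOperators.Group.List.Basic
import Mathlib.Tactic.Group

/-!
# Words of orientable surfaces: merging faces and extraction of handles

`D` is a type of letters with an involution `bar` and a predicate `Z` ("puncture letters").
A system is a list of lists of letters (the faces); every letter which is not a puncture letter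
occurs together with its inverse.  `OneVertex` says that the associated ribbon graph has one vertex:
every labelling of the letters for which all faces are closed paths is constant.
-/

set_option autoImplicit false

universe u v

namespace Groth.Agent.Pi1.H568.Word

variable {D : Type u} (bar : D → D) (Z : D → Prop)

/-- `IsPath s p l q`: for the labelling `s` (label of the starting vertex of a letter), `l` is a path
from `p` to `q`; puncture letters are skipped. -/
def IsPath (s : D → Bool) : Bool → List D → Bool → Prop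
  | p, [], q => p = q
  | p, x :: l, q => (Z x ∧ IsPath s p l q) ∨ (¬ Z x ∧ s x = p ∧ IsPath s (s (bar x)) l q)

variable {bar Z}

lemma isPath_nil {s : D → Bool} {p q : Bool} : IsPath bar Z s p [] q ↔ p = q := Iff.rfl

lemma isPath_cons {s : D → Bool} {p q : Bool} {x : D} {l : List D} (hx : ¬ Z x) :
    IsPath bar Z s p (x :: l) q ↔ s x = p ∧ IsPath bar Z s (s (bar x)) l q := by
  simp [IsPath, hx]

lemma isPath_cons_Z {s : D → Bool} {p q : Bool} {x : D} {l : List D} (hx : Z x) :
    IsPath bar Z s p (x :: l) q ↔ IsPath bar Z s p l q := by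
  simp [IsPath, hx]

lemma isPath_append {s : D → Bool} {p q : Bool} {l₁ l₂ : List D} :
    IsPath bar Z s p (l₁ ++ l₂) q ↔ ∃ m, IsPath bar Z s p l₁ m ∧ IsPath bar Z s m l₂ q := by
  induction l₁ generalizing p with
  | nil => simp [IsPath]
  | cons x l ih =>
    by_cases hx : Z x
    · simp only [List.cons_append, isPath_cons_Z hx, ih]
    · simp only [List.cons_append, isPath_cons hx, ih]
      constructor
      · rintro ⟨h1, m, h2, h3⟩
        exact ⟨m, ⟨h1, h2⟩, h3⟩
      · rintro ⟨m, ⟨h1, h2⟩, h3⟩
        exact ⟨h1, m, h2, h3⟩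

lemma isPath_congr {s s' : D → Bool} {p q : Bool} {l : List D}
    (h : ∀ x ∈ l, ¬ Z x → s x = s' x ∧ s (bar x) = s' (bar x)) (hp : IsPath bar Z s p l q) :
    IsPath bar Z s' p l q := by
  induction l generalizing p with
  | nil => exact hp
  | cons x l ih =>
    by_cases hx : Z x
    · rw [isPath_cons_Z hx] at hp ⊢
      exact ih (fun y hy => h y (List.mem_cons_of_mem _ hy)) hp
    · rw [isPath_cons hx] at hp ⊢
      obtain ⟨h1, h2⟩ := h x List.mem_cons_self hx
      rw [← h1, ← h2]
      exact ⟨hp.1, ih (fun y hy => h y (List.mem_cons_of_mem _ hy)) hp.2⟩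

/-- a path all of whose letters have constant labels -/
lemma isPath_const {s : D → Bool} {p : Bool} {l : List D}
    (h : ∀ x ∈ l, ¬ Z x → s x = p ∧ s (bar x) = p) : IsPath bar Z s p l p := by
  induction l with
  | nil => rfl
  | cons x l ih =>
    by_cases hx : Z x
    · rw [isPath_cons_Z hx]
      exact ih fun y hy => h y (List.mem_cons_of_mem _ hy)
    · rw [isPath_cons hx, (h x List.mem_cons_self hx).2]
      exact ⟨(h x List.mem_cons_self hx).1, ih fun y hy => h y (List.mem_cons_of_mem _ hy)⟩

/-- closed faces -/
def Closed (bar : D → D) (Z : D → Prop) (s : D → Bool) (l : List D) : Prop :=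
  ∃ p, IsPath bar Z s p l p

lemma closed_append_comm {s : D → Bool} {l₁ l₂ : List D} :
    Closed bar Z s (l₁ ++ l₂) ↔ Closed bar Z s (l₂ ++ l₁) := by
  unfold Closed
  simp only [isPath_append]
  constructor
  · rintro ⟨p, m, h1, h2⟩
    exact ⟨m, p, h2, h1⟩
  · rintro ⟨p, m, h1, h2⟩
    exact ⟨m, p, h2, h1⟩

/-- the ribbon graph with faces `L` has one vertex -/
def OneVertex (bar : D → D) (Z : D → Prop) (L : List (List D)) : Prop :=
  ∀ s : D → Bool, (∀ l ∈ L, Closed bar Z s l) →
    ∀ x ∈ L.flatten, ∀ y ∈ L.flatten, ¬ Z x → ¬ Z y → s x = s y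

/-- the axioms of the involution -/
structure IsBar (bar : D → D) (Z : D → Prop) : Prop where
  invol : ∀ x, bar (bar x) = x
  ne : ∀ x, bar x ≠ x
  Z_iff : ∀ x, Z (bar x) ↔ Z x

/-- a system of faces -/
structure IsSys (bar : D → D) (Z : D → Prop) (L : List (List D)) : Prop where
  nodup : L.flatten.Nodup
  mem : ∀ x ∈ L.flatten, ¬ Z x → bar x ∈ L.flatten
  one : OneVertex bar Z L

section Handles

variable {G : Type v} [Group G]

/-- product of commutators of a list of pairs -/
def commProd (H : List (G × G)) : G := (H.map fun a => a.1 * a.2 * a.1⁻¹ * a.2⁻¹).prod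

/-- the set of entries of a list of pairs -/
def entries (H : List (G × G)) : Set G := {g | ∃ a ∈ H, g = a.1 ∨ g = a.2}

/-- conjugation of a list of pairs -/
def conjL (g : G) (H : List (G × G)) : List (G × G) := H.map fun a => (g * a.1 * g⁻¹, g * a.2 * g⁻¹)

lemma commProd_conjL (g : G) (H : List (G × G)) : commProd (conjL g H) = g * commProd H * g⁻¹ := by
  induction H with
  | nil => simp [commProd, conjL]
  | cons a H ih =>
    have h1 : commProd (conjL g (a :: H)) =
        (g * a.1 * g⁻¹) * (g * a.2 * g⁻¹) * (g * a.1 * g⁻¹)⁻¹ * (g * a.2 * g⁻¹)⁻¹ *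
          commProd (conjL g H) := by simp [commProd, conjL]
    have h2 : commProd (a :: H) = a.1 * a.2 * a.1⁻¹ * a.2⁻¹ * commProd H := by simp [commProd]
    rw [h1, ih, h2]
    group

lemma entries_conjL_subset (g : G) (H : List (G × G)) (K : Subgroup G) (hg : g ∈ K)
    (h : entries H ⊆ K) : entries (conjL g H) ⊆ K := by
  rintro x ⟨a, ha, hx⟩
  obtain ⟨b, hb, rfl⟩ := List.mem_map.1 ha
  rcases hx with rfl | rfl
  · exact K.mul_mem (K.mul_mem hg (h ⟨b, hb, Or.inl rfl⟩)) (K.inv_mem hg)
  · exact K.mul_mem (K.mul_mem hg (h ⟨b, hb, Or.inr rfl⟩)) (K.inv_mem hg)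

lemma entries_subset_of_conjL (g : G) (H : List (G × G)) (K : Subgroup G) (hg : g ∈ K)
    (h : entries (conjL g H) ⊆ K) : entries H ⊆ K := by
  have h1 : conjL g⁻¹ (conjL g H) = H := by
    unfold conjL
    rw [List.map_map]
    conv_rhs => rw [← List.map_id H]
    refine List.map_congr_left fun a _ => ?_
    ext
    · simp [mul_assoc]
    · simp [mul_assoc]
  have h2 := entries_conjL_subset g⁻¹ (conjL g H) K (K.inv_mem hg) h
  rwa [h1] at h2

/-- value of a word -/
def val (h : D → G) (w : List D) : G := (w.map h).prod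

@[simp] lemma val_nil (h : D → G) : val h [] = 1 := rfl
@[simp] lemma val_cons (h : D → G) (x : D) (w : List D) : val h (x :: w) = h x * val h w := by simp [val]
@[simp] lemma val_append (h : D → G) (w w' : List D) : val h (w ++ w') = val h w * val h w' := by
  simp [val]

lemma val_mem (h : D → G) (w : List D) (K : Subgroup G) (hK : ∀ x ∈ w, h x ∈ K) : val h w ∈ K :=
  K.list_prod_mem fun x hx => by
    obtain ⟨y, hy, rfl⟩ := List.mem_map.1 hx
    exact hK y hy

end Handles

/-- In a word with one vertex, every letter is crossed by another one. -/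
theorem exists_crossing (hb : IsBar bar Z) {a : D} {X Y : List D} (ha : ¬ Z a)
    (hs : IsSys bar Z [a :: X ++ bar a :: Y]) : ∃ b ∈ X, ¬ Z b ∧ bar b ∈ Y := by
  classical
  by_contra hcon
  push Not at hcon
  have hnd : (a :: X ++ bar a :: Y).Nodup := by simpa using hs.nodup
  have hmem : ∀ x ∈ a :: X ++ bar a :: Y, ¬ Z x → bar x ∈ a :: X ++ bar a :: Y := by
    simpa using hs.mem
  have hnd' := hnd
  rw [List.cons_append, List.nodup_cons, List.nodup_append, List.nodup_cons] at hnd
  obtain ⟨haN, hX, ⟨hbN, hY⟩, hdis⟩ := hnd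
  have hba : ¬ Z (bar a) := fun h => ha ((hb.Z_iff a).1 h)
  -- the labelling
  let s : D → Bool := fun x => decide (x ∈ X ∨ bar x ∈ X ∨ x = bar a)
  have hXs : ∀ x ∈ X, ¬ Z x → bar x ∈ X := by
    intro x hx hxZ
    have h1 := hmem x (by simp [hx]) hxZ
    simp only [List.cons_append, List.mem_cons, List.mem_append] at h1
    rcases h1 with h1 | h1 | h1 | h1
    · exfalso
      have : x = bar a := by rw [← h1, hb.invol]
      subst this
      exact hdis (bar a) hx (bar a) (by simp) rfl
    · exact h1
    · exfalso
      have : x = a := by rw [← hb.invol x, h1, hb.invol]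
      subst this
      exact haN (by simp [hx])
    · exact absurd h1 (hcon x hx hxZ)
  have hclosed : Closed bar Z s (a :: X ++ bar a :: Y) := by
    refine ⟨false, ?_⟩
    have hsa : s a = false := by
      have h1 : a ∉ X := fun h => haN (by simp [h])
      have h2 : bar a ∉ X := fun h => hdis _ h _ (by simp) rfl
      have h3 : a ≠ bar a := fun h => hb.ne a h.symm
      simp [s, h1, h2, h3]
    have hsb : s (bar a) = true := by simp [s]
    rw [List.cons_append, isPath_cons ha, isPath_append]
    refine ⟨hsa, true, ?_, ?_⟩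
    · rw [hsb]
      refine isPath_const fun x hx hxZ => ?_
      constructor
      · simp [s, hx]
      · simp [s, hXs x hx hxZ]
    · rw [isPath_cons hba, hb.invol, hsa]
      refine ⟨hsb, isPath_const fun y hy hyZ => ?_⟩
      have hyX : y ∉ X := fun h => hdis _ h y (by simp [hy]) rfl
      have hyb : bar y ∉ X := by
        intro h
        have := hXs _ h (fun h' => hyZ ((hb.Z_iff y).1 h'))
        rw [hb.invol] at this
        exact hyX this
      have hya : y ≠ bar a := fun h => hbN (h ▸ hy)
      have hya' : bar y ≠ bar a := by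
        intro h
        have : y = a := by rw [← hb.invol y, h, hb.invol]
        subst this
        exact haN (by simp [hy])
      constructor
      · simp [s, hyX, hyb, hya]
      · simp [s, hyX, hyb, hb.invol, hya']
  have h1 := hs.one s (by simpa using hclosed) a (by simp) (bar a) (by simp) ha hba
  have hsa : s a = false := by
    have h1 : a ∉ X := fun h => haN (by simp [h])
    have h2 : bar a ∉ X := fun h => hdis _ h _ (by simp) rfl
    have h3 : a ≠ bar a := fun h => hb.ne a h.symm
    simp [s, h1, h2, h3]
  have hsb : s (bar a) = true := by simp [s]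
  rw [hsa, hsb] at h1
  exact Bool.false_ne_true h1

end Groth.Agent.Pi1.H568.Word
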